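import Cfsg.Agent.T3.Def

/-! S4881, piece A: two small class-number bounds. -/

set_option autoImplicit false
set_option linter.unusedSectionVars false

namespace CF.T3
open Subgroup MulAction Module Cfsg CF.Perm CF.Crit.Tr

theorem four_le_classes {G : Type*} [Group G] [Finite G] (h : 6 < Nat.card G) :
    4 ≤ Nat.card (ConjClasses G) := by
  classical
  have := Fintype.ofFinite G
  have := Fintype.ofFinite (ConjClasses G)
  have a := Char.sum_eq_sum_classes (G := G) (fun _ => (1 : ℕ))
  simp only [Finset.sum_const, smul_eq_mul, mul_one, Finset.card_univ] at a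
  rw [← Nat.card_eq_fintype_card,
    ← Finset.add_sum_erase _ _ (Finset.mem_univ (ConjClasses.mk (1 : G))),
    Char.card_carrier_eq_index, centralizer_eq_top_iff_subset.2 (by simp), index_top] at a
  have b : ∀ C ∈ Finset.univ.erase (ConjClasses.mk (1 : G)),
      2 * Nat.card C.carrier = Nat.card G ∨ 3 * Nat.card C.carrier ≤ Nat.card G := by
    intro C hC
    obtain ⟨x, rfl⟩ := ConjClasses.mk_surjective C
    have x1 : x ≠ 1 := fun e => (Finset.mem_erase.1 hC).1 (e ▸ rfl)
    have c : 1 < Nat.card (centralizer ({x} : Set G)) := (one_lt_card_iff_ne_bot _).2 fun e =>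
      x1 (mem_bot.1 (e ▸ mem_centralizer_singleton_iff.2 rfl))
    rw [Char.card_carrier_eq_index, ← (centralizer ({x} : Set G)).card_mul_index]
    rcases (by omega : Nat.card (centralizer ({x} : Set G)) = 2 ∨
      3 ≤ Nat.card (centralizer ({x} : Set G))) with e | e
    · exact Or.inl (by rw [e])
    · exact Or.inr (Nat.mul_le_mul_right _ e)
  by_contra k
  have c := Finset.card_erase_of_mem (Finset.mem_univ (ConjClasses.mk (1 : G)))
  rw [Finset.card_univ, ← Nat.card_eq_fintype_card] at c
  generalize Finset.univ.erase (ConjClasses.mk (1 : G)) = T at a b c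
  rcases (by omega : T.card = 0 ∨ T.card = 1 ∨ T.card = 2) with e | e | e
  · rw [Finset.card_eq_zero.1 e, Finset.sum_empty] at a
    omega
  · obtain ⟨u, rfl⟩ := Finset.card_eq_one.1 e
    rw [Finset.sum_singleton] at a
    have := b u (by simp)
    omega
  · obtain ⟨u, v, huv, rfl⟩ := Finset.card_eq_two.1 e
    rw [Finset.sum_pair huv] at a
    have := b u (by simp)
    have := b v (by simp)
    omega

theorem classes_index_two {G : Type*} [Group G] [Finite G] (H : Subgroup G) (h : H.index = 2) :
    Nat.card (ConjClasses H) + 2 ≤ 2 * Nat.card (ConjClasses G) := by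
  classical
  have := Fintype.ofFinite G
  have a := Char.sum_card_centralizer (G := G)
  have b := Char.sum_card_centralizer (G := H)
  have c : ∑ x : H, Nat.card (centralizer ({x} : Set H)) ≤
      ∑ x ∈ Finset.univ.filter (· ∈ H), Nat.card (centralizer ({x} : Set G)) := by
    rw [Finset.sum_subtype (p := (· ∈ H)) (Finset.univ.filter (· ∈ H)) (by simp)]
    refine Finset.sum_le_sum fun x _ => Nat.card_le_card_of_injective
      (fun y => (⟨y.1.1, mem_centralizer_singleton_iff.2
        (congrArg Subtype.val (mem_centralizer_singleton_iff.1 y.2))⟩ :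
          centralizer ({(x : G)} : Set G))) fun y z e => ?_
    exact Subtype.ext (Subtype.ext (Subtype.mk.inj e))
  have d : Nat.card H * 0 + (Nat.card G - Nat.card H) * 2 ≤
      ∑ x ∈ Finset.univ.filter (· ∉ H), Nat.card (centralizer ({x} : Set G)) := by
    rw [← sum_ite_mem, Finset.sum_filter]
    refine Finset.sum_le_sum fun x _ => ?_
    split_ifs with k
    · exact le_rfl
    · exact (one_lt_card_iff_ne_bot _).2 fun e =>
        k (mem_bot.1 (e ▸ mem_centralizer_singleton_iff.2 rfl : x ∈ (⊥ : Subgroup G)) ▸ H.one_mem)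
  rw [← Finset.sum_filter_add_sum_filter_not _ (· ∈ H)] at a
  have e := H.card_mul_index
  rw [h] at e
  rw [← e] at a d
  refine Nat.le_of_mul_le_mul_left ?_ (Nat.card_pos (α := H))
  rw [show Nat.card H * 2 - Nat.card H = Nat.card H by omega] at d
  nlinarith

end CF.T3
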