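import Cfsg.Agent.T3.Def

/-!
# Two orbits: a field structure or an invariant subgroup with transitive stabiliser
-/

set_option autoImplicit false
set_option linter.unusedSectionVars false

namespace CF.T3
open Subgroup MulAction Cfsg CF.Perm

universe u

variable {G : Type*} {V : Type u} [Group G] [Finite G] [AddCommGroup V] [DistribMulAction G V]
  [Finite V] {x y : V}

theorem Two.pigeon (h : Two G x y) (c : V → ℕ) (hc : ∀ (g : G) w, c (g • w) = c w) {a b d : V}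
    (ha : a ≠ 0) (hb : b ≠ 0) (hd : d ≠ 0) (h1 : c d ≠ c a) (h2 : c d ≠ c b) :
    ∃ g : G, g • a = b := by
  have e : ∀ {u w : V}, u ∈ orbit G w → c u = c w := by
    rintro _ w ⟨g, rfl⟩
    exact hc g w
  rcases h.cov a ha with p | p <;> rcases h.cov b hb with q | q
  · exact (orbit_eq_iff.2 p).ge q
  · rcases h.cov d hd with r | r
    · exact absurd ((e r).trans (e p).symm) h1
    · exact absurd ((e r).trans (e q).symm) h2
  · rcases h.cov d hd with r | r
    · exact absurd ((e r).trans (e q).symm) h2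
    · exact absurd ((e r).trans (e p).symm) h1
  · exact (orbit_eq_iff.2 p).ge q

theorem Two.dich (h : Two G x y) (R : Subring (AddMonoid.End V))
    (hc : ∀ f ∈ R, ∀ f' ∈ R, ∀ v, f (f' v) = f' (f v))
    (hn : ∀ g : G, ∀ f ∈ R, ∃ f' ∈ R, ∀ v, f' (g • v) = g • f v) {f : AddMonoid.End V}
    (hf : f ∈ R) {v0 : V} (hv0 : v0 ≠ 0) (h0 : f v0 = 0) (f0 : f ≠ 0) :
    ∃ (H : Subgroup G) (W : AddSubgroup V), H.index ≤ 2 ∧ W ≠ ⊥ ∧
      (∀ g ∈ H, ∀ w ∈ W, g • w ∈ W) ∧
      ∀ v ∈ W, ∀ w ∈ W, v ≠ 0 → w ≠ 0 → ∃ g ∈ H, g • v = w := by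
  have := finite_addEnd (V := V)
  obtain ⟨N, hN⟩ : ∃ N : V → Set (AddMonoid.End V), ∀ v f, f ∈ N v ↔ f ∈ R ∧ f v = 0 :=
    ⟨fun v => {f | f ∈ R ∧ f v = 0}, fun _ _ => Iff.rfl⟩
  have hle : ∀ (g : G) w, (N w).ncard ≤ (N (g • w)).ncard := fun g w => by
    choose! c hc hc' using hn g
    refine Set.ncard_le_ncard_of_injOn c (fun f hf => (hN _ _).2
      ⟨hc f ((hN _ _).1 hf).1, by rw [hc' f ((hN _ _).1 hf).1, ((hN _ _).1 hf).2, smul_zero]⟩)
      fun f hf f' hf' e => ?_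
    exact AddMonoidHom.ext fun x => MulAction.injective g
      ((hc' f ((hN _ _).1 hf).1 x).symm.trans (e ▸ hc' f' ((hN _ _).1 hf').1 x))
  have heq : ∀ (g : G) w, (N (g • w)).ncard = (N w).ncard := fun g w =>
    le_antisymm (by simpa using hle g⁻¹ (g • w)) (hle g w)
  have mono : ∀ (g : G) {u w}, N u ⊆ N w → N (g • u) ⊆ N (g • w) := fun g u w k f' hf' => by
    obtain ⟨a, b⟩ := (hN _ _).1 hf'
    obtain ⟨f, c, d⟩ := hn g⁻¹ f' a
    have e := ((hN _ _).1 (k ((hN _ _).2 ⟨c, by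
      rw [← inv_smul_smul g u, d, b, smul_zero]⟩))).2
    rw [← inv_smul_smul g w, d, smul_eq_zero_iff_eq] at e
    exact (hN _ _).2 ⟨a, e⟩
  have meq : ∀ (g : G) {u w}, N u = N w → N (g • u) = N (g • w) := fun g u w k =>
    (mono g k.le).antisymm (mono g k.ge)
  obtain ⟨v, hv, hmax⟩ := Set.exists_max_image {w : V | w ≠ 0} (fun w => (N w).ncard)
    (Set.toFinite _) ⟨v0, hv0⟩
  obtain ⟨M, hM⟩ : ∃ M : V → Prop, ∀ w, M w ↔ w ≠ 0 ∧ (N w).ncard = (N v).ncard :=
    ⟨_, fun _ => Iff.rfl⟩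
  have c1 : ∀ {w u}, M w → u ≠ 0 → N w ⊆ N u → N w = N u := fun {w u} a b k =>
    Set.eq_of_subset_of_ncard_le k ((hmax u b).trans ((hM w).1 a).2.ge)
  have c2 : ∀ {w f}, M w → f ∈ R → f w ≠ 0 → N w = N (f w) := fun {w f} a b k =>
    c1 a k fun f' hf' => (hN _ _).2 ⟨((hN _ _).1 hf').1, by
      rw [hc _ ((hN _ _).1 hf').1 f b, ((hN _ _).1 hf').2, map_zero]⟩
  have c3 : ∀ {u w}, M u → M w → N u ≠ N w → ∃ f ∈ R, f u = 0 ∧ f w ≠ 0 := fun {u w} a b k => by
    obtain ⟨f, p, q⟩ := Set.not_subset.1 (mt (c1 a ((hM w).1 b).1) k)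
    exact ⟨f, ((hN _ _).1 p).1, ((hN _ _).1 p).2, fun r => q ((hN _ _).2 ⟨((hN _ _).1 p).1, r⟩)⟩
  have c4 : ∀ {u f f'}, M u → f ∈ R → f' ∈ R → f u ≠ 0 → f' u ≠ 0 → f (f' u) ≠ 0 :=
    fun {u f f'} a b b' k k' e => k ((hN _ _).1 ((c2 a b' k').ge ((hN _ _).2 ⟨b, e⟩))).2
  have c5 : ∀ {u w}, M u → M w → N u ≠ N w → N (u + w) ⊆ N u := fun {u w} a b k f' hf' => by
    obtain ⟨p, q⟩ := (hN _ _).1 hf'
    obtain ⟨g, g1, g2, g3⟩ := c3 b a k.symm
    refine (hN _ _).2 ⟨p, by_contra fun r => c4 a g1 p g3 r ?_⟩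
    have := congrArg g q
    rwa [map_add, map_add, hc g g1 f' p w, g2, map_zero, map_zero, add_zero] at this
  have nz : ∀ {u w}, u ≠ 0 → N w ⊆ N u → w ≠ 0 := fun {u w} a k e =>
    a ((hN _ _).1 (k ((hN _ 1).2 ⟨R.one_mem, e⟩))).2
  have c6 : ∀ {u w}, M u → M w → N u ≠ N w → (N (u + w)).ncard < (N v).ncard :=
    fun {u w} a b k => by
    rw [← ((hM u).1 a).2]
    refine Set.ncard_lt_ncard ⟨c5 a b k, fun r => k (c1 a ((hM w).1 b).1 (r.trans ?_))⟩
    rw [add_comm]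
    exact c5 b a k.symm
  have c7 : ∀ {u w z}, M u → M w → M z → N u ≠ N w → N u ≠ N z → N (u + w + z) ⊆ N u :=
    fun {u w z} a b d k l f' hf' => by
    obtain ⟨p, q⟩ := (hN _ _).1 hf'
    obtain ⟨g, g1, g2, g3⟩ := c3 b a k.symm
    obtain ⟨j, j1, j2, j3⟩ := c3 d a l.symm
    refine (hN _ _).2 ⟨p, by_contra fun r =>
      c4 (f := g * j) a (R.mul_mem g1 j1) p (c4 a g1 j1 g3 j3) r ?_⟩
    have := congrArg (fun t => g (j t)) q
    simp only [map_add, map_zero] at this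
    rwa [hc j j1 f' p z, j2, hc g g1 j j1 (f' w), hc g g1 f' p w, g2, map_zero, map_zero, map_zero,
      add_zero, add_zero] at this
  have mv : M v := (hM v).2 ⟨hv, rfl⟩
  have mg : ∀ g : G, M (g • v) := fun g => (hM _).2 ⟨(smul_ne_zero_iff_ne g).2 hv, heq g v⟩
  obtain ⟨z, z0, hz⟩ : ∃ z, z ≠ 0 ∧ (N z).ncard ≠ (N v).ncard := by
    by_contra! k
    obtain ⟨w, hw⟩ := DFunLike.ne_iff.1 f0
    have w0 : w ≠ 0 := by rintro rfl; exact hw (map_zero f)
    have a := (hM _).2 ⟨hv0, k _ hv0⟩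
    have b := (hM _).2 ⟨w0, k _ w0⟩
    have d : N v0 ≠ N w := fun e => hw ((hN _ _).1 (e.le ((hN _ _).2 ⟨hf, h0⟩))).2
    exact (c6 a b d).ne (k _ (nz hv0 (c5 a b d)))
  let H : Subgroup G :=
    { carrier := {g | N (g • v) = N v}
      one_mem' := by simp
      mul_mem' := fun {a b} ha hb => by
        change N ((a * b) • v) = N v
        rw [mul_smul, meq a hb, ha]
      inv_mem' := fun {a} ha => by simpa using (meq a⁻¹ ha).symm }
  let W : AddSubgroup V :=
    { carrier := {w | N v ⊆ N w}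
      zero_mem' := fun f hf => (hN _ _).2 ⟨((hN _ _).1 hf).1, map_zero f⟩
      add_mem' := fun {a b} ha hb f hf => (hN _ _).2 ⟨((hN _ _).1 hf).1, by
        rw [map_add, ((hN _ _).1 (ha hf)).2, ((hN _ _).1 (hb hf)).2, add_zero]⟩
      neg_mem' := fun {a} ha f hf => (hN _ _).2 ⟨((hN _ _).1 hf).1, by
        rw [map_neg, ((hN _ _).1 (ha hf)).2, neg_zero]⟩ }
  refine ⟨H, W, not_lt.1 fun k => ?_, fun e => hv ((e.le (show v ∈ W from fun _ k => k)) :),
    fun g hg w hw => (show N (g • v) = N v from hg).ge.trans (mono g hw),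
    fun a ha b hb a0 b0 => ?_⟩
  · have := Fintype.ofFinite (G ⧸ H)
    rw [index_eq_card, Nat.card_eq_fintype_card, Fintype.two_lt_card_iff] at k
    obtain ⟨a, b, c, ab, ac, bc⟩ := k
    obtain ⟨a, rfl⟩ := QuotientGroup.mk_surjective a
    obtain ⟨b, rfl⟩ := QuotientGroup.mk_surjective b
    obtain ⟨c, rfl⟩ := QuotientGroup.mk_surjective c
    have ne : ∀ {a b : G}, (a : G ⧸ H) ≠ b → N (a • v) ≠ N (b • v) := fun {a b} p q =>
      p (QuotientGroup.eq.2 (show N ((a⁻¹ * b) • v) = N v by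
        simpa [← mul_smul] using (meq a⁻¹ q).symm))
    have s1 := c7 (mg a) (mg b) (mg c) (ne ab) (ne ac)
    have s2 := c7 (mg b) (mg a) (mg c) (ne ab.symm) (ne bc)
    have s3 := c7 (mg c) (mg a) (mg b) (ne ac.symm) (ne bc.symm)
    rw [add_comm (b • v)] at s2
    rw [add_rotate] at s3
    have s4 := c6 (mg a) (mg b) (ne ab)
    have s5 : (N (a • v + b • v + c • v)).ncard < (N (a • v + b • v)).ncard := by
      refine Set.ncard_lt_ncard ⟨fun f hf => (hN _ _).2 ⟨((hN _ _).1 hf).1, by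
        rw [map_add, ((hN _ _).1 (s1 hf)).2, ((hN _ _).1 (s2 hf)).2, add_zero]⟩, fun r => ?_⟩
      obtain ⟨g, g1, g2, g3⟩ := c3 (mg a) (mg c) (ne ac)
      obtain ⟨j, j1, j2, j3⟩ := c3 (mg b) (mg c) (ne bc)
      refine c4 (mg c) g1 j1 g3 j3 ((hN _ (g * j)).1 (s3 (r ((hN _ _).2
        ⟨R.mul_mem g1 j1, ?_⟩)))).2
      change g (j _) = 0
      rw [map_add, j2, add_zero, hc g g1 j j1, g2, map_zero]
    obtain ⟨g, hg⟩ := h.pigeon (fun w => (N w).ncard) heq hv
      (nz ((hM _).1 (mg a)).1 (c5 (mg a) (mg b) (ne ab))) (nz ((hM _).1 (mg a)).1 s1)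
      (s5.trans s4).ne s5.ne
    exact s4.ne (hg ▸ heq g v)
  · have p := c1 mv a0 ha
    have q := c1 mv b0 hb
    obtain ⟨g, hg⟩ := h.pigeon (fun w => (N w).ncard) heq a0 b0 z0 (p ▸ hz) (q ▸ hz)
    exact ⟨g, (meq g p).trans (hg ▸ q.symm), hg⟩

theorem Two.exists_FS [Nontrivial V] [FaithfulSMul G V] (h : Two G x y) (A : Subgroup G)
    [hA : A.Normal] (hc : IsMulCommutative A) :
    (∃ (K : Type u) (_ : Field K) (_ : Finite K) (_ : Module K V) (σ : G →* RingAut K),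
      FS V K A σ) ∨
    ∃ (H : Subgroup G) (W : AddSubgroup V), H.index ≤ 2 ∧ W ≠ ⊥ ∧
      (∀ g ∈ H, ∀ w ∈ W, g • w ∈ W) ∧
      ∀ v ∈ W, ∀ w ∈ W, v ≠ 0 → w ≠ 0 → ∃ g ∈ H, g • v = w := by
  have := finite_addEnd (V := V)
  let T := DistribMulAction.toAddMonoidEnd G V
  let R := Subring.closure (T '' A)
  have hR : ∀ a ∈ A, T a ∈ R := fun a ha => Subring.subset_closure ⟨a, ha, rfl⟩
  have h1 : ∀ g : G, ∀ f ∈ R, T g * f * T g⁻¹ ∈ R := fun g f hf => by
    induction hf using Subring.closure_induction with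
    | mem x hx =>
      obtain ⟨a, ha, rfl⟩ := hx
      simpa only [map_mul] using hR _ (hA.conj_mem a ha g)
    | zero => simp
    | one => simp [← map_mul]
    | add x y _ _ hx hy => simpa only [mul_add, add_mul] using R.add_mem hx hy
    | neg x _ hx => simpa only [mul_neg, neg_mul] using R.neg_mem hx
    | mul x y _ _ hx hy =>
      have := R.mul_mem hx hy
      rwa [mul_assoc, ← mul_assoc (T g⁻¹), ← mul_assoc (T g⁻¹), ← map_mul, inv_mul_cancel, map_one,
        one_mul, ← mul_assoc, mul_assoc (T g)] at this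
  have h2 : ∀ g ∈ centralizer (A : Set G), ∀ f ∈ R, f * T g = T g * f := fun g hg f hf =>
    Subring.closure_le (t := Subring.centralizer {T g}).2 (by
      rintro _ ⟨a, ha, rfl⟩ _ rfl
      rw [← map_mul, ← hg a ha, map_mul]) hf _ rfl |>.symm
  have h3 : ∀ f ∈ R, ∀ f' ∈ R, f * f' = f' * f := fun f hf f' hf' =>
    Subring.closure_le (t := Subring.centralizer {f}).2 (by
      rintro _ ⟨a, ha, rfl⟩ _ rfl
      exact h2 a (le_centralizer A ha) _ hf) hf' _ rfl
  obtain ⟨v, hv⟩ := exists_ne (0 : V)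
  have : Nontrivial (AddMonoid.End V) := ⟨1, 0, fun h => hv (DFunLike.congr_fun h v)⟩
  refine or_iff_not_imp_right.2 fun hno => ?_
  have : NoZeroDivisors R := ⟨fun {a b} hab => or_iff_not_imp_right.2 fun hb => by
    obtain ⟨w, hw⟩ := DFunLike.ne_iff.1 (mt Subtype.ext hb)
    exact Subtype.ext (by_contra fun k => hno (h.dich R
      (fun f hf f' hf' v => DFunLike.congr_fun (h3 f hf f' hf') v)
      (fun g f hf => ⟨_, h1 g f hf, fun v => by
        change g • f (g⁻¹ • g • v) = _; rw [inv_smul_smul]⟩) a.2 hw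
      (DFunLike.congr_fun (congrArg Subtype.val hab) w) k))⟩
  have : IsDomain R := NoZeroDivisors.to_isDomain _
  letI : Field R := (Finite.isDomain_to_isField R).toField
  letI : MulSemiringAction G R :=
    { smul := fun g f => ⟨_, h1 g f f.2⟩
      one_smul := fun f => Subtype.ext (show T 1 * f * T 1⁻¹ = f by simp)
      mul_smul := fun g k f => Subtype.ext (show T (g * k) * f * T (g * k)⁻¹ =
        T g * (T k * f * T k⁻¹) * T g⁻¹ by simp only [mul_inv_rev, map_mul, mul_assoc])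
      smul_zero := fun g => Subtype.ext (show T g * 0 * T g⁻¹ = 0 by simp)
      smul_add := fun g f f' => Subtype.ext (show T g * (f + f') * T g⁻¹ =
        T g * f * T g⁻¹ + T g * f' * T g⁻¹ by simp only [mul_add, add_mul])
      smul_one := fun g => Subtype.ext (show T g * 1 * T g⁻¹ = 1 by simp [← map_mul])
      smul_mul := fun g f f' => Subtype.ext (show T g * (f * f') * T g⁻¹ =
        T g * f * T g⁻¹ * (T g * f' * T g⁻¹) by
          simp only [mul_assoc]; rw [← mul_assoc (T g⁻¹), ← map_mul]; simp) }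
  refine ⟨R, inferInstance, inferInstance, inferInstance, MulSemiringAction.toRingAut G R,
    fun g k v => ?_, fun a ha => ⟨⟨_, hR a ha⟩, fun _ => rfl⟩, le_antisymm (fun g hg a ha => ?_)
    fun g hg => RingEquiv.ext fun k => Subtype.ext ?_, fun W hW k v hv => ?_⟩
  · change _ = g • (k : AddMonoid.End V) (g⁻¹ • g • v)
    rw [inv_smul_smul]; rfl
  · refine eq_mul_inv_iff_mul_eq.1 (eq_of_smul_eq_smul (α := V) fun v => ?_)
    rw [mul_smul, mul_smul]
    exact (DFunLike.congr_fun (congrArg Subtype.val (DFunLike.congr_fun hg ⟨_, hR a ha⟩)) v).symm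
  · change T g * k * T g⁻¹ = k
    rw [← h2 g hg k k.2, mul_assoc, ← map_mul]; simp
  · obtain ⟨k, hk⟩ := k
    change k v ∈ W
    induction hk using Subring.closure_induction generalizing v with
    | mem x hx => obtain ⟨a, ha, rfl⟩ := hx; exact hW a ha v hv
    | zero => exact W.zero_mem
    | one => exact hv
    | add x y _ _ hx hy => exact W.add_mem (hx v hv) (hy v hv)
    | neg x _ hx => exact W.neg_mem (hx v hv)
    | mul x y _ _ hx hy => exact hx _ (hy v hv)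

end CF.T3
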