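import Cfsg.Agent.T3.A
import Cfsg.Agent.Fgs2.Base1

/-! S4881, piece C: a subgroup of index at most two transitive on an invariant subgroup. -/

set_option autoImplicit false
set_option linter.unusedSectionVars false

namespace CF.T3
open Subgroup MulAction Module Cfsg CF.Perm CF.Crit.Tr
universe u

variable {G : Type*} {V : Type u} [Group G] [Finite G] [AddCommGroup V] [DistribMulAction G V]
  [Finite V] [Nontrivial V] [FaithfulSMul G V] {p : ℕ} [hp : Fact p.Prime] {x y : V}

theorem of_sub (hG : ¬ p ∣ Nat.card G) (hV : ∀ w : V, p • w = 0) (H : Subgroup G)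
    (hH : H.index ≤ 2) (W : AddSubgroup V) (h0 : W ≠ ⊥) (h1 : ∀ g ∈ H, ∀ w ∈ W, g • w ∈ W)
    (h2 : ∀ v ∈ W, ∀ w ∈ W, v ≠ 0 → w ≠ 0 → ∃ g ∈ H, g • v = w) :
    p ≤ 2 * Nat.card (ConjClasses G) := by
  let _ : DistribMulAction H W := Fgs2.Base.subAct (H := H) (U := W) h1
  let _ := Fgs2.Base.rangeAct H W
  have := (AddSubgroup.nontrivial_iff_ne_bot W).2 h0
  let φ := (MulAction.toPermHom H W).rangeRestrict
  have hφ : Function.Surjective φ := MonoidHom.rangeRestrict_surjective _
  have a := Crit.Tr.lower (G := (MulAction.toPermHom H W).range) (V := W) (p := p)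
    (fun d => hG ((d.trans (card_dvd_of_surjective φ hφ)).trans (card_subgroup_dvd_card H)))
    (fun v w hv hw => by
      obtain ⟨g, hg, e⟩ := h2 v v.2 w w.2 (fun e => hv (Subtype.ext e)) fun e => hw (Subtype.ext e)
      exact ⟨φ ⟨g, hg⟩, Subtype.ext e⟩)
    fun w => Subtype.ext (hV w)
  have b := Nat.card_le_card_of_surjective _ (ConjClasses.map_surjective hφ)
  have c := hp.out.two_le
  have d := index_ne_zero_of_finite (H := H)
  rcases (by omega : H.index = 1 ∨ H.index = 2) with e | e
  · have f : Nat.card (ConjClasses H) ≤ Nat.card (ConjClasses G) := by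
      obtain rfl := index_eq_one.1 e
      exact Nat.card_le_card_of_surjective _
        (ConjClasses.map_surjective (f := (topEquiv (G := G)).symm.toMonoidHom)
          (topEquiv (G := G)).symm.surjective)
    omega
  · have f := classes_index_two H e
    omega

end CF.T3
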