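import Cfsg.Agent.T3.Def

/-!
# Two orbits on non-zero vectors: the Fourier count
-/

set_option autoImplicit false
set_option linter.unusedSectionVars false

namespace CF.T3
open Subgroup MulAction

namespace Dd

theorem int_of_integral {z : ℂ} (hz : IsIntegral ℤ z) {n m : ℤ} (hn : n ≠ 0)
    (h : (n : ℂ) * z = m) : ∃ k : ℤ, z = k := by
  have e : z = algebraMap ℚ ℂ ((m : ℚ) / n) := by
    have : (n : ℂ) ≠ 0 := by exact_mod_cast hn
    simp only [eq_ratCast, Rat.cast_div, Rat.cast_intCast]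
    rw [eq_div_iff this, ← h, mul_comm]
  rw [e, isIntegral_algebraMap_iff (algebraMap ℚ ℂ).injective] at hz
  obtain ⟨k, hk⟩ := IsIntegrallyClosed.isIntegral_iff.1 hz
  exact ⟨k, by rw [e, ← hk]; simp⟩

theorem geom_int {z : ℂ} {p : ℕ} (h : z ^ p = 1) :
    ∃ m : ℤ, ∑ c ∈ Finset.range p, z ^ c = m := by
  by_cases h1 : z = 1
  · exact ⟨p, by simp [h1]⟩
  · exact ⟨0, by rw [geom_sum_eq h1, h]; simp⟩

/-- the arithmetic of the parameters -/
theorem arith {p n : ℕ} (hp : p.Prime) {k l f1 f2 v : ℕ} {r s E : ℤ} (hv : v = p ^ n)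
    (v1 : 1 < v) (hk : ¬ p ∣ k) (hl : ¬ p ∣ l) (h1 : ¬ p ∣ f1) (h2 : ¬ p ∣ f2)
    (e1 : k + l + 1 = v) (e2 : f1 + f2 + 1 = v) (e3 : (k : ℤ) + f1 * r + f2 * s = 0)
    (e4 : E * (r - s) = v) (e5 : (k : ℤ) * l * E = f1 * (l * r + k + k * r)) :
    ∃ D : ℤ, D ^ 2 = v ∧ D - 1 ∣ (k : ℤ) ∧ D - 1 ∣ (l : ℤ) := by
  have e1' : (k : ℤ) + l + 1 = v := by exact_mod_cast e1
  have e2' : (f1 : ℤ) + f2 + 1 = v := by exact_mod_cast e2
  obtain ⟨D, hD⟩ : ∃ D, D = r - s := ⟨_, rfl⟩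
  have e6 : (k : ℤ) * l * E = f1 * f2 * D := by
    rw [e5, hD]
    linear_combination f1 * r * (e1' - e2') + f1 * e3
  rw [← hD] at e4
  have cop : ∀ a : ℕ, ¬ p ∣ a → IsCoprime (v : ℤ) (a : ℤ) := fun a ha => by
    rw [Nat.isCoprime_iff_coprime, hv]
    exact Nat.Coprime.pow_left _ (hp.coprime_iff_not_dvd.2 ha)
  have d1 : D ∣ E := by
    have c : IsCoprime D ((k : ℤ) * l) :=
      ((cop k hk).mul_right (cop l hl)).of_isCoprime_of_dvd_left ⟨E, by rw [← e4, mul_comm]⟩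
    exact c.dvd_of_dvd_mul_left ⟨f1 * f2, by rw [e6, mul_comm]⟩
  have d2 : E ∣ D := by
    have c : IsCoprime E ((f1 : ℤ) * f2) :=
      ((cop f1 h1).mul_right (cop f2 h2)).of_isCoprime_of_dvd_left ⟨D, e4.symm⟩
    exact c.dvd_of_dvd_mul_left ⟨k * l, by rw [← e6, mul_comm]⟩
  have v1' : (1 : ℤ) < v := by exact_mod_cast v1
  have hE : E = D := by
    rcases Int.natAbs_eq_natAbs_iff.1 (Nat.dvd_antisymm (Int.natAbs_dvd_natAbs.2 d2)
      (Int.natAbs_dvd_natAbs.2 d1)) with e | e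
    · exact e
    · rw [e] at e4; nlinarith [sq_nonneg D]
  subst hE
  have hE0 : E ≠ 0 := by rintro rfl; omega
  have e7 : (k : ℤ) * l = f1 * f2 := mul_right_cancel₀ hE0 e6
  have e8 : ((k : ℤ) - f1) * (k - f2) = 0 := by linear_combination k * (e1' - e2') - e7
  have fin : ∀ D : ℤ, D ^ 2 = v → D - 1 ∣ (k : ℤ) →
      ∃ D : ℤ, D ^ 2 = v ∧ D - 1 ∣ (k : ℤ) ∧ D - 1 ∣ (l : ℤ) := fun D a b =>
    ⟨D, a, b, by
      have : (l : ℤ) = (D - 1) * (D + 1) - k := by linear_combination e1' - a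
      rw [this]
      exact dvd_sub (Dvd.intro _ rfl) b⟩
  rcases mul_eq_zero.1 e8 with e | e
  · refine fin E (by rw [sq, e4]) ⟨-s, ?_⟩
    have hne : E + 1 ≠ 0 := fun q => by
      have : E = -1 := by omega
      rw [this] at e4; omega
    apply mul_left_cancel₀ hne
    have a1 : (f1 : ℤ) = k := by omega
    have a2 : (f2 : ℤ) = l := by omega
    rw [a1, a2] at e3
    have a3 : r = s + E := by omega
    rw [a3] at e3
    linear_combination e3 - s * e1' + s * e4
  · refine fin (-E) (by rw [neg_sq, sq, e4]) ⟨-r, ?_⟩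
    have hne : E - 1 ≠ 0 := fun q => by
      have : E = 1 := by omega
      rw [this] at e4; omega
    apply mul_left_cancel₀ hne
    have a1 : (f2 : ℤ) = k := by omega
    have a2 : (f1 : ℤ) = l := by omega
    rw [a1, a2] at e3
    have a3 : s = r - E := by omega
    rw [a3] at e3
    linear_combination -e3 + r * e1' - r * e4

variable (G V : Type*) [Group G] [AddCommGroup V] [DistribMulAction G V]

/-- the action on the dual group -/
@[reducible] noncomputable def dual : MulAction G (AddChar V ℂ) where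
  smul g ψ := ψ.compAddMonoidHom (DistribMulAction.toAddMonoidHom V g⁻¹)
  one_smul ψ := by
    ext v
    change ψ ((1 : G)⁻¹ • v) = ψ v
    simp
  mul_smul g h ψ := by
    ext v
    change ψ ((g * h)⁻¹ • v) = ψ (h⁻¹ • g⁻¹ • v)
    rw [mul_inv_rev, mul_smul]

attribute [local instance] dual

variable {G V}

theorem dual_apply (g : G) (ψ : AddChar V ℂ) (v : V) : (g • ψ) v = ψ (g⁻¹ • v) := rfl

open _root_.Classical in
/-- an orbit as a finite set -/
noncomputable def orb (G : Type*) {X : Type*} [Group G] [MulAction G X] [Fintype X] (x : X) :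
    Finset X := Finset.univ.filter (· ∈ orbit G x)

theorem mem_orb {X : Type*} [MulAction G X] [Fintype X] {x y : X} :
    y ∈ orb G x ↔ y ∈ orbit G x := by simp [orb]

theorem card_orb {X : Type*} [MulAction G X] [Fintype X] (x : X) :
    (orb G x).card = (stabilizer G x).index := by
  rw [index_stabilizer, ← Set.ncard_coe_finset]
  congr 1
  ext y; simp [mem_orb]

theorem sum_orb {X : Type*} [MulAction G X] [Fintype X] (x : X) (g : G) (f : X → ℂ) :
    ∑ y ∈ orb G x, f (g • y) = ∑ y ∈ orb G x, f y := by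
  refine Finset.sum_equiv (MulAction.toPerm g) (fun y => ?_) fun y _ => rfl
  simp only [mem_orb, toPerm_apply]
  constructor
  · rintro ⟨h, rfl⟩
    exact ⟨g * h, by simp [mul_smul]⟩
  · rintro ⟨h, e⟩
    exact ⟨g⁻¹ * h, by simp only at e; simp [mul_smul, e]⟩

variable [Fintype V] {p : ℕ} {x y : V}

theorem sum_split (h : Two G x y) (f : V → ℂ) :
    ∑ v, f v = f 0 + ∑ v ∈ orb G x, f v + ∑ v ∈ orb G y, f v := by
  classical
  have dj : Disjoint (orb G x) (orb G y) := Finset.disjoint_left.2 fun z a b =>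
    h.ne (by rw [← orbit_eq_iff.2 (mem_orb.1 a)]; exact mem_orbit_symm.1 (mem_orb.1 b))
  have e : (Finset.univ : Finset V) = insert 0 (orb G x ∪ orb G y) := by
    ext z
    simp only [Finset.mem_univ, Finset.mem_insert, Finset.mem_union, mem_orb, true_iff]
    by_cases hz : z = 0
    · exact Or.inl hz
    · exact Or.inr (h.cov z hz)
  rw [e, Finset.sum_insert, Finset.sum_union dj, add_assoc]
  simp only [Finset.mem_union, mem_orb, not_or]
  exact ⟨fun k => ne_zero_of_mem h.x0 k rfl, fun k => ne_zero_of_mem h.y0 k rfl⟩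

theorem sum_scal (hp : p.Prime) (hV : ∀ w : V, p • w = 0) (hs : Sc p G V) {c : ℕ} (hc : ¬ p ∣ c)
    (z : V) (f : V → ℂ) : ∑ v ∈ orb G z, f (c • v) = ∑ v ∈ orb G z, f v := by
  classical
  have inj : Function.Injective fun v : V => c • v := fun a b hab => by
    have hu : c • (a - b) = 0 := by rw [nsmul_sub]; exact sub_eq_zero.2 hab
    have h1 := addOrderOf_dvd_of_nsmul_eq_zero hu
    have h2 := addOrderOf_dvd_of_nsmul_eq_zero (hV (a - b))
    exact sub_eq_zero.1 (AddMonoid.addOrderOf_eq_one_iff.1 (Nat.eq_one_of_dvd_coprimes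
      (hp.coprime_iff_not_dvd.2 hc) h2 h1))
  have e : (orb G z).image (fun v : V => c • v) = orb G z := by
    refine Finset.eq_of_subset_of_card_le (fun w hw => ?_) (Finset.card_image_of_injective _ inj).ge
    obtain ⟨v, hv, rfl⟩ := Finset.mem_image.1 hw
    rw [mem_orb] at hv ⊢
    rw [← orbit_eq_iff.2 hv]
    exact hs c hc v
  conv_rhs => rw [← e]
  rw [Finset.sum_image fun a _ b _ hab => inj hab]

theorem char_pow (hV : ∀ w : V, p • w = 0) (ψ : AddChar V ℂ) (v : V) : ψ v ^ p = 1 := by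
  rw [← ψ.map_nsmul_eq_pow, hV, ψ.map_zero_eq_one]

theorem char_int (hp : p.Prime) (hV : ∀ w : V, p • w = 0) (ψ : AddChar V ℂ) (v : V) :
    IsIntegral ℤ (ψ v) :=
  IsIntegral.of_pow hp.pos (by rw [char_pow hV]; exact isIntegral_one)

theorem eta_int (hp : p.Prime) (hV : ∀ w : V, p • w = 0) (hs : Sc p G V) (z : V)
    (ψ : AddChar V ℂ) : ∃ r : ℤ, ∑ v ∈ orb G z, ψ v = r := by
  obtain ⟨n, rfl⟩ : ∃ n, p = n + 1 := ⟨p - 1, (Nat.sub_add_cancel hp.one_le).symm⟩
  choose m hm using fun v : V => geom_int (char_pow hV ψ v)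
  have n0 : n ≠ 0 := by rintro rfl; exact Nat.not_prime_one hp
  refine int_of_integral (IsIntegral.sum _ fun v _ => char_int hp hV ψ v) (n := n)
    (m := ∑ v ∈ orb G z, m v - (orb G z).card) (by exact_mod_cast n0) ?_
  have e : ∑ v ∈ orb G z, (m v : ℂ) =
      ∑ c ∈ Finset.range (n + 1), ∑ v ∈ orb G z, ψ (c • v) := by
    rw [Finset.sum_comm]
    refine Finset.sum_congr rfl fun v _ => ?_
    rw [← hm]
    simp only [ψ.map_nsmul_eq_pow]
  rw [Finset.sum_range_succ', Finset.sum_congr rfl (g := fun _ => ∑ v ∈ orb G z, ψ v)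
    fun c hc => sum_scal hp hV hs (fun k => by
      have := Nat.le_of_dvd (Nat.succ_pos c) k
      have := Finset.mem_range.1 hc
      omega) z ψ] at e
  push_cast
  rw [e]
  simp

theorem eta_neg (hp : p.Prime) (hV : ∀ w : V, p • w = 0) (hs : Sc p G V) (z : V)
    (ψ : AddChar V ℂ) : ∑ v ∈ orb G z, ψ (-v) = ∑ v ∈ orb G z, ψ v := by
  rw [← sum_scal hp hV hs (c := p - 1) (fun k => by
      have := hp.two_le
      have := Nat.le_of_dvd (by omega) k
      omega) z ψ]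
  refine Finset.sum_congr rfl fun v _ => ?_
  congr 1
  rw [neg_eq_iff_add_eq_zero, add_comm, ← succ_nsmul, Nat.sub_add_cancel hp.one_le, hV]

theorem S_const (ψ₀ : AddChar V ℂ) {z v : V} (hv : v ∈ orb G z) :
    ∑ ψ ∈ orb G ψ₀, ψ v = ∑ ψ ∈ orb G ψ₀, ψ z := by
  obtain ⟨g, rfl⟩ := mem_orb.1 hv
  rw [← sum_orb ψ₀ g⁻¹ fun ψ => ψ z]
  simp [dual_apply]

theorem eta_y (h : Two G x y) {ψ : AddChar V ℂ} (h0 : ψ ≠ 0) :
    ∑ v ∈ orb G y, ψ v = -1 - ∑ v ∈ orb G x, ψ v := by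
  classical
  have := sum_split h ψ
  rw [AddChar.sum_eq_ite, if_neg h0, ψ.map_zero_eq_one] at this
  linear_combination -this

open _root_.Classical in
/-- Fourier inversion for the sum over an orbit of characters -/
theorem inv (hp : p.Prime) (hV : ∀ w : V, p • w = 0) (hs : Sc p G V) (h : Two G x y)
    (ψ₀ : AddChar V ℂ) {ψ : AddChar V ℂ} (h0 : ψ ≠ 0) :
    (∑ χ ∈ orb G ψ₀, χ x - ∑ χ ∈ orb G ψ₀, χ y) * ∑ v ∈ orb G x, ψ v =
      (if ψ ∈ orb G ψ₀ then (Fintype.card V : ℂ) else 0) - (orb G ψ₀).card +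
        ∑ χ ∈ orb G ψ₀, χ y := by
  have e1 : ∑ v, (∑ χ ∈ orb G ψ₀, χ v) * ψ (-v) =
      if ψ ∈ orb G ψ₀ then (Fintype.card V : ℂ) else 0 := by
    simp only [Finset.sum_mul]
    rw [Finset.sum_comm]
    simp only [← AddChar.sub_apply, AddChar.sum_eq_ite, sub_eq_zero]
    rw [Finset.sum_ite_eq']
  rw [sum_split h, Finset.sum_congr rfl (s₂ := orb G x)
    (g := fun v => (∑ χ ∈ orb G ψ₀, χ x) * ψ (-v)) fun v hv => by rw [S_const ψ₀ hv],
    Finset.sum_congr rfl (s₂ := orb G y)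
    (g := fun v => (∑ χ ∈ orb G ψ₀, χ y) * ψ (-v)) fun v hv => by rw [S_const ψ₀ hv],
    ← Finset.mul_sum, ← Finset.mul_sum, eta_neg hp hV hs, eta_neg hp hV hs, eta_y h h0] at e1
  simp only [AddChar.map_zero_eq_one, neg_zero, Finset.sum_const, nsmul_eq_mul, mul_one] at e1
  linear_combination e1

theorem ne_zero_orb {ψ₀ ψ : AddChar V ℂ} (h0 : ψ₀ ≠ 0) (hψ : ψ ∈ orb G ψ₀) : ψ ≠ 0 := by
  obtain ⟨g, rfl⟩ := mem_orb.1 hψ
  intro e
  apply h0
  ext v
  have := DFunLike.congr_fun e (g • v)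
  simpa [dual_apply] using this

theorem eta_const {ψ₀ ψ : AddChar V ℂ} (hψ : ψ ∈ orb G ψ₀) (z : V) :
    ∑ v ∈ orb G z, ψ v = ∑ v ∈ orb G z, ψ₀ v := by
  obtain ⟨g, rfl⟩ := mem_orb.1 hψ
  rw [← sum_orb z g⁻¹ ψ₀]
  rfl

open _root_.Classical in
theorem sum_eta (z w : V) : ∑ ψ : AddChar V ℂ, (∑ v ∈ orb G z, ψ v) * ψ (-w) =
    if w ∈ orb G z then (Fintype.card V : ℂ) else 0 := by
  simp only [Finset.sum_mul]
  rw [Finset.sum_comm]
  simp only [← AddChar.map_add_eq_mul, AddChar.sum_apply_eq_ite, ← sub_eq_add_neg, sub_eq_zero]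
  rw [Finset.sum_ite_eq']

/-- `η` is not constant on the non-trivial characters -/
theorem exists_ne (h : Two G x y) (r : ℂ) :
    ∃ ψ : AddChar V ℂ, ψ ≠ 0 ∧ ∑ v ∈ orb G x, ψ v ≠ r := by
  classical
  by_contra hc
  push Not at hc
  have key : ∀ w : V, w ≠ 0 → ∑ ψ : AddChar V ℂ, (∑ v ∈ orb G x, ψ v) * ψ (-w) =
      (orb G x).card - r := by
    intro w hw
    have e := AddChar.sum_apply_eq_ite (α := V) (-w)
    rw [if_neg (neg_ne_zero.2 hw), ← Finset.add_sum_erase _ _ (Finset.mem_univ 0)] at e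
    rw [← Finset.add_sum_erase _ _ (Finset.mem_univ 0), Finset.sum_congr rfl
      (g := fun ψ : AddChar V ℂ => r * ψ (-w))
      fun ψ hψ => by rw [hc ψ (Finset.ne_of_mem_erase hψ)], ← Finset.mul_sum]
    simp only [AddChar.zero_apply, Finset.sum_const, nsmul_eq_mul, mul_one] at e ⊢
    linear_combination r * e
  have a := key x h.x0
  have b := key y h.y0
  rw [sum_eta, if_pos (mem_orb.2 (mem_orbit_self x))] at a
  rw [sum_eta, if_neg (mt mem_orb.1 h.ne), ← a] at b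
  exact (Nat.cast_ne_zero.2 Fintype.card_ne_zero) b.symm

end Dd

open Dd

attribute [local instance] Dd.dual

universe u

variable {G : Type*} {V : Type u} [Group G] [Finite G] [AddCommGroup V] [DistribMulAction G V]
  [Finite V] [Nontrivial V] [FaithfulSMul G V] {p : ℕ} [hp : Fact p.Prime] {x y : V}

theorem Two.exists_D (h : Two G x y) (hG : ¬ p ∣ Nat.card G) (hV : ∀ w : V, p • w = 0)
    (hs : Sc p G V) : ∃ D : ℤ, D ^ 2 = Nat.card V ∧
      ∀ z : V, z ≠ 0 → D - 1 ∣ ((stabilizer G z).index : ℤ) := by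
  classical
  have := Fintype.ofFinite V
  have v0 : (Fintype.card V : ℂ) ≠ 0 := Nat.cast_ne_zero.2 Fintype.card_ne_zero
  obtain ⟨ψ₁, n1, -⟩ := exists_ne h 0
  obtain ⟨r, hr⟩ := eta_int hp.out hV hs x ψ₁
  obtain ⟨ψ₂, n2, hne⟩ := exists_ne h r
  obtain ⟨s, hs'⟩ := eta_int hp.out hV hs x ψ₂
  have rs : (s : ℂ) ≠ r := hs' ▸ hne
  have m1 : ψ₁ ∈ orb G ψ₁ := mem_orb.2 (mem_orbit_self _)
  have m2 : ψ₂ ∈ orb G ψ₂ := mem_orb.2 (mem_orbit_self _)
  have dj : Disjoint (orb G ψ₁) (orb G ψ₂) := Finset.disjoint_left.2 fun ψ a b =>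
    rs (by rw [← hr, ← hs', ← eta_const a, ← eta_const b])
  have i11 := inv hp.out hV hs h ψ₁ n1
  have i12 := inv hp.out hV hs h ψ₁ n2
  have i21 := inv hp.out hV hs h ψ₂ n1
  have i22 := inv hp.out hV hs h ψ₂ n2
  rw [if_pos m1, hr] at i11
  rw [if_neg (Finset.disjoint_right.1 dj m2), hs'] at i12
  rw [if_neg (Finset.disjoint_left.1 dj m1), hr] at i21
  rw [if_pos m2, hs'] at i22
  set a := ∑ χ ∈ orb G ψ₁, χ x with ha
  set b := ∑ χ ∈ orb G ψ₁, χ y with hb
  have e4 : (a - b) * (r - s) = Fintype.card V := by linear_combination i11 - i12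
  have cov : (Finset.univ : Finset (AddChar V ℂ)) = insert 0 (orb G ψ₁ ∪ orb G ψ₂) := by
    ext ψ
    simp only [Finset.mem_univ, Finset.mem_insert, Finset.mem_union, true_iff]
    by_contra hc
    push Not at hc
    have j1 := inv hp.out hV hs h ψ₁ hc.1
    have j2 := inv hp.out hV hs h ψ₂ hc.1
    rw [if_neg hc.2.1] at j1
    rw [if_neg hc.2.2] at j2
    have ab : a - b ≠ 0 := fun q => v0 (by rw [← e4, q, zero_mul])
    have ab' : ∑ χ ∈ orb G ψ₂, χ x - ∑ χ ∈ orb G ψ₂, χ y ≠ 0 := fun q => by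
      rw [q] at i21 i22
      exact v0 (by linear_combination i21 - i22)
    exact rs ((mul_left_cancel₀ ab (j1.trans i12.symm)).symm.trans
      (mul_left_cancel₀ ab' (j2.trans i21.symm)))
  have n0 : (0 : AddChar V ℂ) ∉ orb G ψ₁ ∪ orb G ψ₂ := fun k =>
    (Finset.mem_union.1 k).elim (fun k => ne_zero_orb n1 k rfl) fun k => ne_zero_orb n2 k rfl
  have e2 : (orb G ψ₁).card + (orb G ψ₂).card + 1 = Nat.card V := by
    rw [Nat.card_eq_fintype_card, ← AddChar.card_eq, ← Finset.card_univ, cov,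
      Finset.card_insert_of_notMem n0, Finset.card_union_of_disjoint dj]
  have e3 : ((orb G x).card : ℂ) + (orb G ψ₁).card * r + (orb G ψ₂).card * s = 0 := by
    have e := sum_eta (G := G) x 0
    rw [if_neg (fun k => ne_zero_of_mem h.x0 ((mem_orb (G := G)).1 k) rfl), cov, Finset.sum_insert n0,
      Finset.sum_union dj, Finset.sum_congr rfl (s₂ := orb G ψ₁) (g := fun _ => (r : ℂ))
        fun ψ k => by rw [eta_const k, hr, neg_zero, ψ.map_zero_eq_one, mul_one],
      Finset.sum_congr rfl (s₂ := orb G ψ₂) (g := fun _ => (s : ℂ))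
        fun ψ k => by rw [eta_const k, hs', neg_zero, ψ.map_zero_eq_one, mul_one]] at e
    simp only [AddChar.zero_apply, Finset.sum_const, nsmul_eq_mul, mul_one] at e
    linear_combination e
  have ka : ((orb G x).card : ℂ) * a = (orb G ψ₁).card * r := by
    have e : ∑ v ∈ orb G x, ∑ χ ∈ orb G ψ₁, χ v = ∑ χ ∈ orb G ψ₁, ∑ v ∈ orb G x, χ v :=
      Finset.sum_comm
    rw [Finset.sum_congr rfl fun v hv => S_const ψ₁ hv,
      Finset.sum_congr rfl (s₂ := orb G ψ₁) (f := fun χ => ∑ v ∈ orb G x, χ v)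
        (g := fun _ => (r : ℂ)) fun ψ k => by rw [eta_const k, hr]] at e
    simpa only [Finset.sum_const, nsmul_eq_mul] using e
  have lb : ((orb G y).card : ℂ) * b = (orb G ψ₁).card * (-1 - r) := by
    have e : ∑ v ∈ orb G y, ∑ χ ∈ orb G ψ₁, χ v = ∑ χ ∈ orb G ψ₁, ∑ v ∈ orb G y, χ v :=
      Finset.sum_comm
    rw [Finset.sum_congr rfl fun v hv => S_const ψ₁ hv,
      Finset.sum_congr rfl (s₂ := orb G ψ₁) (f := fun χ => ∑ v ∈ orb G y, χ v)
        (g := fun _ => (-1 - r : ℂ)) fun ψ k => by rw [eta_const k, eta_y h n1, hr]] at e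
    simpa only [Finset.sum_const, nsmul_eq_mul] using e
  obtain ⟨E, hE⟩ := int_of_integral (z := a - b)
    ((IsIntegral.sum _ fun χ _ => char_int hp.out hV χ x).sub
      (IsIntegral.sum _ fun χ _ => char_int hp.out hV χ y)) (n := r - s)
    (m := Fintype.card V) (fun q => rs (by rw [sub_eq_zero.1 q])) (by push_cast; rw [← e4]; ring)
  have hpV : IsPGroup p (Multiplicative V) := fun w => ⟨1, by
    rw [pow_one, ← ofAdd_toAdd w, ← ofAdd_nsmul, hV, ofAdd_zero]⟩
  obtain ⟨n, hn⟩ := IsPGroup.iff_card.1 hpV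
  have nd : ∀ {X : Type u} [MulAction G X] [Fintype X] (z : X), ¬ p ∣ (orb G z).card :=
    fun z k => hG (k.trans (by rw [card_orb]; exact index_dvd_card _))
  obtain ⟨D, d1, d2, d3⟩ := arith (n := n) hp.out (k := (orb G x).card) (l := (orb G y).card)
    (f1 := (orb G ψ₁).card) (f2 := (orb G ψ₂).card) (v := Nat.card V) (r := r) (s := s) (E := E)
    hn Finite.one_lt_card (nd x) (nd y) (nd ψ₁) (nd ψ₂)
    (by rw [card_orb, card_orb, h.card]) e2 (by exact_mod_cast e3)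
    (by rw [hE, ← Nat.card_eq_fintype_card] at e4; exact_mod_cast e4)
    (by
      have : ((orb G x).card : ℂ) * (orb G y).card * E = (orb G ψ₁).card *
          ((orb G y).card * r + (orb G x).card + (orb G x).card * r) := by
        rw [← hE]
        linear_combination ((orb G y).card : ℂ) * ka - ((orb G x).card : ℂ) * lb
      exact_mod_cast this)
  refine ⟨D, d1, fun z hz => ?_⟩
  rcases h.cov z hz with k | k <;> rw [index_eq_of_mem k, ← card_orb]
  exacts [d2, d3]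

end CF.T3
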