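import Cfsg.Agent.Crit.Tr6

/-!
# Linear groups with exactly two orbits on non-zero vectors
-/

set_option autoImplicit false
set_option linter.unusedSectionVars false

namespace CF.T3
open Subgroup MulAction

/-- exactly two orbits on non-zero vectors, with representatives `x`, `y` -/
structure Two (G : Type*) {V : Type*} [Group G] [AddCommGroup V] [DistribMulAction G V]
    (x y : V) : Prop where
  x0 : x ≠ 0
  y0 : y ≠ 0
  ne : y ∉ orbit G x
  cov : ∀ z : V, z ≠ 0 → z ∈ orbit G x ∨ z ∈ orbit G y

/-- the orbits are invariant under the scalars of the prime field -/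
def Sc (p : ℕ) (G V : Type*) [Group G] [AddCommGroup V] [DistribMulAction G V] : Prop :=
  ∀ c : ℕ, ¬ p ∣ c → ∀ z : V, c • z ∈ orbit G z

variable {G V : Type*} [Group G] [AddCommGroup V] [DistribMulAction G V] {x y : V}

theorem Two.symm (h : Two G x y) : Two G y x :=
  ⟨h.y0, h.x0, fun k => h.ne (mem_orbit_symm.1 k), fun z hz => (h.cov z hz).symm⟩

theorem ne_zero_of_mem {z w : V} (hz : z ≠ 0) (h : w ∈ orbit G z) : w ≠ 0 := by
  obtain ⟨g, rfl⟩ := h
  exact (smul_ne_zero_iff_ne g).2 hz

theorem index_eq_of_mem {z w : V} (h : w ∈ orbit G z) :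
    (stabilizer G w).index = (stabilizer G z).index := by
  rw [index_stabilizer, index_stabilizer, orbit_eq_iff.2 h]

theorem Two.card [Finite V] (h : Two G x y) :
    (stabilizer G x).index + (stabilizer G y).index + 1 = Nat.card V := by
  have h1 : orbit G x ∪ orbit G y = {0}ᶜ := Set.ext fun z =>
    ⟨fun k => k.elim (ne_zero_of_mem h.x0) (ne_zero_of_mem h.y0), h.cov z⟩
  have h2 := Set.ncard_add_ncard_compl ({0} : Set V)
  rw [← h2, Set.ncard_singleton, ← h1, index_stabilizer, index_stabilizer, add_comm 1,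
    Set.ncard_union_eq (Set.disjoint_left.2 fun z a b =>
      h.ne (by rw [← orbit_eq_iff.2 a]; exact mem_orbit_symm.1 b))]

theorem Two.card_le [Finite G] [Finite V] (h : Two G x y) : Nat.card V ≤ 2 * Nat.card G + 1 := by
  have a := Nat.le_of_dvd Nat.card_pos (stabilizer G x).index_dvd_card
  have b := Nat.le_of_dvd Nat.card_pos (stabilizer G y).index_dvd_card
  have := h.card
  omega

theorem Two.half [Finite V] {p : ℕ} (hp : p.Prime) (hV : ∀ w : V, p • w = 0) (h : Two G x y)
    (hs : ¬ Sc p G V) {z : V} (hz : z ≠ 0) : 2 * (stabilizer G z).index + 1 = Nat.card V := by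
  simp only [Sc, not_forall] at hs
  obtain ⟨c, hc, w, hw⟩ := hs
  have inj : ∀ u : V, c • u = 0 → u = 0 := fun u hu => by
    have := addOrderOf_dvd_of_nsmul_eq_zero hu
    have h2 := addOrderOf_dvd_of_nsmul_eq_zero (hV u)
    exact AddMonoid.addOrderOf_eq_one_iff.1 (Nat.eq_one_of_dvd_coprimes
      (hp.coprime_iff_not_dvd.2 hc) h2 this)
  have w0 : w ≠ 0 := by rintro rfl; exact hw (by simp)
  have e : stabilizer G (c • w) = stabilizer G w := by
    ext g
    simp only [mem_stabilizer_iff]
    rw [smul_comm g c w, ← sub_eq_zero, ← nsmul_sub, ← sub_eq_zero (a := g • w)]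
    exact ⟨inj _, fun k => by rw [k, nsmul_zero]⟩
  have key : (stabilizer G x).index = (stabilizer G y).index := by
    rcases h.cov w w0 with a | a <;> rcases h.cov (c • w) (mt (inj w) w0) with b | b
    · exact absurd (by rwa [orbit_eq_iff.2 a]) hw
    · rw [← index_eq_of_mem a, ← index_eq_of_mem b, e]
    · rw [← index_eq_of_mem a, ← index_eq_of_mem b, e]
    · exact absurd (by rwa [orbit_eq_iff.2 a]) hw
  have := h.card
  rcases h.cov z hz with a | a <;> rw [index_eq_of_mem a] <;> omega

end CF.T3
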