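import Cfsg.Agent.T3.Def

/-! S4881, piece E: counting eigenvalues in the prime field. -/

set_option autoImplicit false
set_option linter.unusedSectionVars false

namespace CF.T3
open Subgroup MulAction Module

variable {G V : Type*} [Group G] [Finite G] [AddCommGroup V] [DistribMulAction G V]
  [Finite V] {p : ℕ} [hp : Fact p.Prime] {x y : V}

/-- the action of `g` as a linear map over the prime field -/
def linE (p : ℕ) [Module (ZMod p) V] (g : G) : V →ₗ[ZMod p] V :=
  (DistribMulAction.toAddMonoidHom V g).toZModLinearMap p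

theorem linE_apply [Module (ZMod p) V] (g : G) (w : V) : linE p g w = g • w := rfl

theorem smul_zmod [Module (ZMod p) V] (g : G) (c : ZMod p) (w : V) : g • c • w = c • g • w :=
  (linE p g).map_smul c w

theorem Sc.zmod [Module (ZMod p) V] (hs : Sc p G V) {c : ZMod p} (hc : c ≠ 0) (z : V) :
    c • z ∈ orbit G z := by
  have := hs c.val (fun k => hc (by
    rw [← ZMod.natCast_zmod_val c, ZMod.natCast_eq_zero_iff]; exact k)) z
  rwa [← Nat.cast_smul_eq_nsmul (ZMod p), ZMod.natCast_zmod_val] at this

/-- the pairs (orbit, eigenvalue) that occur for `g` -/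
noncomputable def eigE (p : ℕ) [Fact p.Prime] [Module (ZMod p) V] (x y : V) (g : G) :
    Finset (Bool × ZMod p) :=
  @Finset.filter _ (fun s => ∃ w ∈ orbit G (if s.1 then x else y), g • w = s.2 • w)
    (Classical.decPred _) Finset.univ

theorem card_eigE_le [Module (ZMod p) V] (h : Two G x y) (hs : Sc p G V) (g : G) :
    (eigE p x y g).card ≤ finrank (ZMod p) V := by
  classical
  have n0 : ∀ (i : Bool) (w : V), w ∈ orbit G (if i then x else y) → w ≠ 0 := fun i w hw =>
    ne_zero_of_mem (by cases i <;> simp [h.x0, h.y0]) hw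
  have key : ∀ c : ZMod p, ((eigE p x y g).filter fun s => s.2 = c).card ≤
      finrank (ZMod p) (End.eigenspace (linE (V := V) p g) c) := by
    intro c
    have ex : ∀ s : {s // s ∈ (eigE p x y g).filter fun s => s.2 = c},
        ∃ w : End.eigenspace (linE (V := V) p g) c, (w : V) ∈ orbit G (if s.1.1 then x else y) := by
      rintro ⟨s, hs⟩
      simp only [eigE, Finset.mem_filter, Finset.mem_univ, true_and] at hs
      obtain ⟨⟨w, h1, h2⟩, rfl⟩ := hs
      exact ⟨⟨w, End.mem_eigenspace_iff.2 h2⟩, h1⟩
    choose w hw using ex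
    rw [← Fintype.card_coe]
    refine LinearIndependent.fintype_card_le_finrank (b := w) ?_
    refine LinearIndependent.of_comp (Submodule.subtype _) ?_
    have inj : Function.Injective
        fun s : {s // s ∈ (eigE p x y g).filter fun s => s.2 = c} => s.1.1 := fun a b e =>
      Subtype.ext (Prod.ext e (((Finset.mem_filter.1 a.2).2).trans (Finset.mem_filter.1 b.2).2.symm))
    rw [linearIndependent_iff_notMem_span]
    intro a ha
    by_cases hb : ∃ b, b ≠ a
    · obtain ⟨b, hb⟩ := hb
      have e : (Set.univ \ {a} : Set _) = {b} := by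
        ext d
        simp only [Set.mem_diff, Set.mem_univ, Set.mem_singleton_iff, true_and]
        refine ⟨fun k => inj ?_, fun k => k ▸ hb⟩
        have k1 := inj.ne k
        have k2 := inj.ne hb
        simp only at k1 k2 ⊢
        revert k1 k2
        cases d.1.1 <;> cases a.1.1 <;> cases b.1.1 <;> simp
      rw [e, Set.image_singleton, Submodule.mem_span_singleton] at ha
      obtain ⟨u, hu⟩ := ha
      simp only [Function.comp, Submodule.subtype_apply] at hu
      have u0 : u ≠ 0 := by
        rintro rfl
        exact n0 _ _ (hw a) (by rw [← hu, zero_smul])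
      have m1 : (w a : V) ∈ orbit G (w b : V) := hu ▸ hs.zmod u0 _
      have m2 := orbit_eq_iff.2 (hw a)
      rw [orbit_eq_iff.2 m1, orbit_eq_iff.2 (hw b)] at m2
      have k2 : b.1.1 ≠ a.1.1 := inj.ne hb
      revert k2 m2
      cases a.1.1 <;> cases b.1.1 <;> simp only [ne_eq, not_true, false_imp_iff, imp_true_iff,
        if_true, Bool.false_eq_true, if_false, not_false_iff, forall_true_left, Bool.true_eq_false]
      · exact fun k => h.ne (k ▸ mem_orbit_self y)
      · exact fun k => h.ne (k ▸ mem_orbit_self y)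
    · push Not at hb
      have e : (Set.univ \ {a} : Set _) = ∅ := by
        ext d; simp [hb d]
      rw [e, Set.image_empty, Submodule.span_empty, Submodule.mem_bot] at ha
      exact n0 _ _ (hw a) ha
  rw [Finset.card_eq_sum_card_fiberwise (f := fun s => s.2) (t := Finset.univ) (by simp)]
  refine (Finset.sum_le_sum fun c _ => (key c).trans (LinearMap.finrank_eigenspace_le _ c)).trans ?_
  simp only [← Polynomial.count_roots]
  rw [← (linE (V := V) p g).charpoly_natDegree]
  refine le_trans (le_of_eq ?_) (Polynomial.card_roots' _)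
  exact Multiset.sum_count_eq_card (by simp)

theorem Two.eig [Nontrivial V] [FaithfulSMul G V] (h : Two G x y) (hV : ∀ w : V, p • w = 0)
    (hs : Sc p G V) {n : ℕ}
    (hn : Nat.card V = p ^ n) : 2 * (p - 1) + n ≤ n * Nat.card (ConjClasses G) + 2 := by
  classical
  obtain ⟨_⟩ : Nonempty (Module (ZMod p) V) := ⟨AddCommGroup.zmodModule hV⟩
  have := Fintype.ofFinite (ConjClasses G)
  have hf : finrank (ZMod p) V = n := by
    have := Module.natCard_eq_pow_finrank (K := ZMod p) (V := V)
    rw [hn, Nat.card_zmod] at this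
    exact (Nat.pow_right_injective hp.out.two_le this).symm
  choose ρ hρ using fun C : ConjClasses G => ConjClasses.exists_rep C
  have cov : (Finset.univ ×ˢ (Finset.univ.erase (0 : ZMod p)) : Finset (Bool × ZMod p)) ⊆
      Finset.univ.biUnion fun C => eigE p x y (ρ C) := by
    rintro ⟨i, c⟩ hc
    simp only [Finset.mem_product, Finset.mem_univ, Finset.mem_erase, true_and, and_true] at hc
    obtain ⟨g, hg⟩ := hs.zmod hc (if i then x else y)
    obtain ⟨k, hk⟩ := isConj_iff.1 (ConjClasses.mk_eq_mk_iff_isConj.1 (hρ (ConjClasses.mk g)).symm)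
    simp only [Finset.mem_biUnion, Finset.mem_univ, true_and, eigE, Finset.mem_filter]
    refine ⟨ConjClasses.mk g, k • (if i then x else y), mem_orbit _ k, ?_⟩
    simp only at hg
    rw [← hk, mul_smul, inv_smul_smul, mul_smul, hg, smul_zmod]
  have one : (eigE p x y (ρ (ConjClasses.mk 1))).card ≤ 2 := by
    have e : ρ (ConjClasses.mk 1) = 1 :=
      isConj_one_left.1 (ConjClasses.mk_eq_mk_iff_isConj.1 (hρ (ConjClasses.mk 1)))
    refine (Finset.card_le_card (t := Finset.univ ×ˢ {1}) ?_).trans (by simp)
    rintro ⟨i, c⟩ hc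
    simp only [eigE, Finset.mem_filter, Finset.mem_univ, true_and, e, one_smul] at hc
    obtain ⟨w, h1, h2⟩ := hc
    have w0 : w ≠ 0 := ne_zero_of_mem (by cases i <;> simp [h.x0, h.y0]) h1
    have : (c - 1) • w = 0 := by rw [sub_smul, one_smul, ← h2, sub_self]
    simp [sub_eq_zero.1 ((smul_eq_zero.1 this).resolve_right w0)]
  have c1 := (Finset.card_le_card cov).trans Finset.card_biUnion_le
  rw [← Finset.add_sum_erase _ _ (Finset.mem_univ (ConjClasses.mk 1))] at c1
  have c2 := Finset.sum_le_card_nsmul (Finset.univ.erase (ConjClasses.mk (1 : G)))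
    (fun C => (eigE p x y (ρ C)).card) n fun C _ => hf ▸ card_eigE_le h hs _
  rw [Finset.card_product, Finset.card_erase_of_mem (Finset.mem_univ _), Finset.card_univ,
    Finset.card_univ, ZMod.card, Fintype.card_bool] at c1
  rw [Finset.card_erase_of_mem (Finset.mem_univ _), Finset.card_univ, smul_eq_mul,
    ← Nat.card_eq_fintype_card] at c2
  obtain ⟨k, hk⟩ : ∃ k, Nat.card (ConjClasses G) = k + 1 :=
    Nat.exists_eq_succ_of_ne_zero Nat.card_pos.ne'
  rw [hk] at c2 ⊢
  rw [Nat.add_sub_cancel, mul_comm] at c2
  rw [mul_add n]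
  omega

end CF.T3
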