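import Cfsg.Agent.BlockB.GA
import Cfsg.Agent.Solv.Cores

/-! Blichfeldt's lemma: in a linear group of degree `< r`, the `r`-th power of an `r`-element
lies in `O_r`. -/

set_option autoImplicit false

namespace CF.T3.G1
open Subgroup Cfsg Polynomial Module

variable {L : Type*} [Group L] [Finite L] {θ : L → ℂ} {r : ℕ} {M : Ideal AlgInt}

/-- the values as algebraic integers -/
def val (hθ : IsCharacter L θ) (g : L) : AlgInt := ⟨θ g, Char.char_isIntegral hθ g⟩

theorem charP (hM : IsPModular r M) : CharP (AlgInt ⧸ M) r := by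
  have := hM.2.1
  have := Ideal.Quotient.nontrivial_iff.2 hM.2.1.ne_top
  refine (CharP.charP_iff_prime_eq_zero hM.1).2 ?_
  rw [← map_natCast (Ideal.Quotient.mk M), Ideal.Quotient.eq_zero_iff_mem]
  exact hM.2.2

theorem cong (hθ : IsCharacter L θ) (hM : IsPModular r M) (hd : charDegree θ ≤ r) {x : L} {k : ℕ}
    (hx : x ^ r ^ k = 1) (g : L) : val hθ (g * x ^ r) - val hθ g ∈ M := by
  classical
  have := hM.2.1
  have := Fact.mk hM.1
  have := charP hM
  let _ := Ideal.Quotient.field M
  obtain ⟨n, ρ, e⟩ := id hθ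
  obtain ⟨b, ω, h1, h2, -⟩ := Char.exists_eigenbasis_rep ρ (isOfFinOrder_of_finite x)
  have hn : finrank ℂ (Fin n → ℂ) ≤ r := by
    rw [BlockB.charDegree_of_eq (n := n) (by rw [← e]; simp)] at hd
    simpa using hd
  have hω : ∀ i, ω i ^ r ^ k = 1 := fun i => by
    obtain ⟨t, ht⟩ := orderOf_dvd_of_pow_eq_one hx
    rw [ht, pow_mul, h1, one_pow]
  let w : Fin (finrank ℂ (Fin n → ℂ)) → AlgInt := fun i =>
    ⟨ω i, IsIntegral.of_pow (pow_pos hM.1.pos k) (by rw [hω]; exact isIntegral_one)⟩
  let c : Fin (finrank ℂ (Fin n → ℂ)) → ℂ := fun i => b.repr (ρ g (b i)) i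
  have hc : ∀ j : ℕ, θ (g * x ^ j) = ∑ i, c i * ω i ^ j := fun j => by
    rw [← e, Representation.character, LinearMap.trace_eq_matrix_trace ℂ b, Matrix.trace]
    refine Finset.sum_congr rfl fun i _ => ?_
    have h3 := h2 j i
    rw [zpow_natCast, zpow_natCast] at h3
    rw [Matrix.diag_apply, LinearMap.toMatrix_apply, map_mul, Module.End.mul_apply, h3, map_smul,
      map_smul, Finsupp.smul_apply, smul_eq_mul, mul_comm]
  let m : AlgInt[X] := ∏ i, (X - C (w i))
  let R : AlgInt[X] := X ^ r - 1 - (X - 1) ^ (r - finrank ℂ (Fin n → ℂ)) * m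
  have hR : ∀ j, R.coeff j ∈ M := fun j => by
    have hw : ∀ i, Ideal.Quotient.mk M (w i) = 1 := fun i => by
      have h3 : Ideal.Quotient.mk M (w i) ^ r ^ k = 1 := by
        rw [← map_pow, show w i ^ r ^ k = 1 from Subtype.ext (hω i), map_one]
      have h4 := sub_pow_char_pow (Ideal.Quotient.mk M (w i)) 1 (p := r) (n := k)
      rw [h3, one_pow, sub_self] at h4
      exact sub_eq_zero.1 (pow_eq_zero_iff (pow_pos hM.1.pos k).ne' |>.1 h4)
    have h0 : R.map (Ideal.Quotient.mk M) = 0 := by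
      simp only [R, m, Polynomial.map_sub, Polynomial.map_pow, Polynomial.map_mul, map_X,
        Polynomial.map_one, Polynomial.map_prod, map_C, hw, map_one, Finset.prod_const,
        Finset.card_univ, Fintype.card_fin]
      rw [← pow_add, Nat.sub_add_cancel hn, sub_pow_char, one_pow, sub_self]
    rw [← Ideal.Quotient.eq_zero_iff_mem, ← coeff_map, h0, coeff_zero]
  have key : val hθ (g * x ^ r) - val hθ g =
      ∑ j ∈ Finset.range (R.natDegree + 1), R.coeff j * val hθ (g * x ^ j) := by
    apply Subtype.ext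
    have h5 : ∀ i, ω i ^ r - 1 =
        ∑ j ∈ Finset.range (R.natDegree + 1), (R.coeff j : ℂ) * ω i ^ j := fun i => by
      have h6 := eval_eq_sum_range (p := R) (w i)
      have h7 : R.eval (w i) = w i ^ r - 1 := by
        have : m.eval (w i) = 0 := by
          rw [eval_prod]
          exact Finset.prod_eq_zero (Finset.mem_univ i) (by simp)
        simp [R, this]
      rw [h7] at h6
      simpa using congrArg Subtype.val h6
    have h8 := hc 0
    rw [pow_zero, mul_one] at h8
    simp only [val, AddSubgroupClass.coe_sub, AddSubmonoidClass.coe_finsetSum,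
      MulMemClass.coe_mul, hc r, h8]
    simp only [hc, Finset.mul_sum]
    rw [Finset.sum_comm, ← Finset.sum_sub_distrib]
    refine Finset.sum_congr rfl fun i _ => ?_
    rw [pow_zero, ← mul_sub, h5, Finset.mul_sum]
    exact Finset.sum_congr rfl fun j _ => by ring
  rw [key]
  exact M.sum_mem fun j _ => M.mul_mem_right _ (hR j)

/-- the kernel modulo `M` -/
def N (hθ : IsCharacter L θ) (M : Ideal AlgInt) : Subgroup L where
  carrier := {y | ∀ g, val hθ (g * y) - val hθ g ∈ M}
  one_mem' g := by simp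
  mul_mem' {a b} ha hb g := by
    have := M.add_mem (hb (g * a)) (ha g)
    rwa [sub_add_sub_cancel, mul_assoc] at this
  inv_mem' {a} ha g := by
    have := M.neg_mem (ha (g * a⁻¹))
    rwa [neg_sub, inv_mul_cancel_right] at this

theorem N_normal (hθ : IsCharacter L θ) : (N hθ M).Normal := ⟨fun y hy a g => by
  have h := hy (a⁻¹ * g * a)
  have c := Char.char_isClassFunction hθ
  have e1 : val hθ (a⁻¹ * g * a * y) = val hθ (g * (a * y * a⁻¹)) :=
    Subtype.ext (by
      change θ _ = θ _
      rw [← c _ a]; congr 1; group)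
  have e2 : val hθ (a⁻¹ * g * a) = val hθ g :=
    Subtype.ext (by
      change θ _ = θ _
      rw [← c _ a]; congr 1; group)
  rwa [e1, e2] at h⟩

theorem N_pgroup (hθ : IsCharacter L θ) (hf : ∀ g, θ g = θ 1 → g = 1) (hM : IsPModular r M)
    (hd : charDegree θ < r) : IsPGroup r (N hθ M) := by
  classical
  have := Fact.mk hM.1
  have := charP hM
  rw [IsPGroup.iff_card]
  refine ⟨_, (Nat.eq_prime_pow_of_unique_prime_dvd Nat.card_pos.ne' fun {s} hs hd' => ?_)⟩
  by_contra hsr
  have := Fact.mk hs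
  obtain ⟨⟨y, hy⟩, ho⟩ := exists_prime_orderOf_dvd_card' s hd'
  rw [orderOf_mk] at ho
  obtain ⟨n, ω, h1, h2, h3⟩ := Char.char_exists_roots hθ y
  rw [BlockB.charDegree_of_eq h1] at hd
  rw [ho] at h2
  let t := (Finset.univ.filter fun i => ω i ≠ 1).card
  have ht : t ≤ n := by simpa using Finset.card_filter_le Finset.univ fun i => ω i ≠ 1
  have hsum : ∑ j ∈ Finset.range s, (val hθ 1 - val hθ (y ^ j)) = ((s * t : ℕ) : AlgInt) := by
    apply Subtype.ext
    have h4 : ∀ j : ℕ, θ 1 - θ (y ^ j) = ∑ i, (1 - ω i ^ j) := fun j => by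
      have := h3 j
      rw [zpow_natCast] at this
      simp [this, h1]
    simp only [val, AddSubgroupClass.coe_sub, AddSubmonoidClass.coe_finsetSum, h4]
    rw [Finset.sum_comm]
    have h5 : ∀ i, ∑ j ∈ Finset.range s, (1 - ω i ^ j) = if ω i ≠ 1 then (s : ℂ) else 0 := fun i => by
      split_ifs with h
      · have := geom_sum_eq h s
        rw [h2, sub_self, zero_div] at this
        simp [this]
      · simp [not_not.1 h]
    simp only [h5]
    rw [← Finset.sum_filter]
    simp [t, mul_comm]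
  have hm : ((s * t : ℕ) : AlgInt) ∈ M := by
    rw [← hsum]
    refine M.sum_mem fun j _ => ?_
    have := M.neg_mem (pow_mem hy j 1)
    rwa [neg_sub, one_mul] at this
  rw [← Ideal.Quotient.eq_zero_iff_mem, map_natCast, CharP.cast_eq_zero_iff _ r] at hm
  have h6 : r ∣ t := (hM.1.dvd_mul.1 hm).resolve_left fun h =>
    hsr ((Nat.prime_dvd_prime_iff_eq hM.1 hs).1 h).symm
  have h7 : t = 0 := Nat.eq_zero_of_dvd_of_lt h6 (by omega)
  have h8 : ∀ i, ω i = 1 := fun i => by
    by_contra h
    exact Finset.card_ne_zero_of_mem (s := Finset.univ.filter fun i => ω i ≠ 1) (a := i)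
      (by simpa using h) h7
  have h9 := h3 1
  rw [zpow_one] at h9
  rw [hf y (by simp [h9, h8, h1]), orderOf_one] at ho
  exact hs.one_lt.ne ho

/-- Blichfeldt's lemma -/
theorem pow_mem_pCore (hθ : IsCharacter L θ) (hf : ∀ g, θ g = θ 1 → g = 1) (hr : r.Prime)
    (hd : charDegree θ < r) {x : L} {k : ℕ} (hx : x ^ r ^ k = 1) : x ^ r ∈ pCore r L := by
  obtain ⟨M, hM⟩ := BlockB.exists_isPModular hr
  have := N_normal (M := M) hθ
  exact Solv.le_pCore (N_pgroup hθ hf hM hd) (cong hθ hM hd.le hx)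

end CF.T3.G1
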