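import Cfsg.Agent.T3.Def
import Cfsg.Agent.T3.G1

/-! An orbit of length not divisible by `r ^ 2`. -/

set_option autoImplicit false
set_option linter.unusedSectionVars false

namespace CF.T3
open Subgroup MulAction Module Cfsg CF.Perm CF.Crit.Tr

/-- an elementary abelian `r`-group has a short orbit on non-zero vectors -/
theorem G1.short {G V : Type*} [Group G] [Finite G] [AddCommGroup V] [DistribMulAction G V]
    [Nontrivial V] {r : ℕ} (hr : r.Prime) (hV : ∀ w : V, r • w = 0 → w = 0) (P : Subgroup G)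
    (hc : ∀ a ∈ P, ∀ b ∈ P, a * b = b * a) (he : ∀ a ∈ P, a ^ r = 1) :
    ∃ z : V, z ≠ 0 ∧ (orbit P z).ncard ≤ r := by
  classical
  have : Finite (Subgroup G) :=
    Finite.of_injective (fun H : Subgroup G => (H : Set G)) SetLike.coe_injective
  obtain ⟨v, hv⟩ := exists_ne (0 : V)
  obtain ⟨_, ⟨z, hz, rfl⟩, hmax⟩ := (wellFounded_gt (α := Subgroup G)).has_min
    {Q | ∃ z : V, z ≠ 0 ∧ Q = P ⊓ stabilizer G z} ⟨_, v, hv, rfl⟩
  refine ⟨z, hz, ?_⟩
  have nrm : ∀ c ∈ P, ∀ d ∈ P, c • z ≠ z → ∑ j ∈ Finset.range r, (d * c ^ j) • z = 0 := by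
    intro c hc' d hd hcz
    by_contra h0
    refine hmax _ ⟨_, h0, rfl⟩ (lt_of_le_of_ne ?_ fun e => hcz ?_)
    · rintro a ⟨h1, h2⟩
      refine ⟨h1, ?_⟩
      have h3 : a • z = z := h2
      change a • _ = _
      rw [Finset.smul_sum]
      refine Finset.sum_congr rfl fun j _ => ?_
      rw [← mul_smul, hc a h1 _ (P.mul_mem hd (P.pow_mem hc' j)), mul_smul, h3]
    · refine (e.ge (show c ∈ P ⊓ stabilizer G _ from ⟨hc', ?_⟩)).2
      change c • _ = _
      have h4 := Finset.sum_range_succ (fun j => (d * c ^ j) • z) r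
      rw [Finset.sum_range_succ', he c hc', pow_zero, add_left_inj] at h4
      rw [Finset.smul_sum, ← h4]
      refine Finset.sum_congr rfl fun j _ => ?_
      rw [← mul_smul, ← mul_assoc, hc c hc' d hd, mul_assoc, pow_succ']
  by_cases hb : ∀ b ∈ P, b • z = z
  · have : orbit P z ⊆ {z} := by
      rintro _ ⟨b, rfl⟩
      exact hb b b.2
    exact ((Set.ncard_le_ncard this).trans_eq (Set.ncard_singleton z)).trans hr.one_le
  push Not at hb
  obtain ⟨b, hbP, hb⟩ := hb
  have hbj : ∀ j, 0 < j → j < r → b ^ j • z ≠ z := fun j h1 h2 e => hb (by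
    have h3 : j.Coprime (orderOf b) :=
      ((Nat.coprime_of_lt_prime h1.ne' h2 hr).symm).coprime_dvd_right
        (orderOf_dvd_of_pow_eq_one (he b hbP))
    obtain ⟨m, hm⟩ := exists_pow_eq_self_of_coprime h3
    have : (b ^ j) ^ m ∈ stabilizer G z := pow_mem (mem_stabilizer_iff.2 e) m
    rwa [hm] at this)
  by_cases ha : ∀ a ∈ P, ∃ i < r, (a * b ^ i) • z = z
  · have : orbit P z ⊆ (fun i : ℕ => b ^ i • z) '' (Finset.range r : Set ℕ) := by
      rintro _ ⟨a, rfl⟩
      obtain ⟨i, h1, h2⟩ := ha _ (P.inv_mem a.2)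
      refine ⟨i, by simpa using h1, ?_⟩
      rw [mul_smul, inv_smul_eq_iff] at h2
      exact h2
    refine (Set.ncard_le_ncard this (Set.toFinite _)).trans
      ((Set.ncard_image_le (Set.toFinite _)).trans ?_)
    rw [Set.ncard_coe_finset, Finset.card_range]
  push Not at ha
  obtain ⟨a, haP, ha⟩ := ha
  refine absurd (hV z ?_) hz
  have h1 : ∑ i ∈ Finset.range r, ∑ j ∈ Finset.range r, (1 * (a * b ^ i) ^ j) • z = 0 :=
    Finset.sum_eq_zero fun i hi =>
      nrm _ (P.mul_mem haP (P.pow_mem hbP i)) 1 P.one_mem (ha i (Finset.mem_range.1 hi))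
  rw [Finset.sum_comm, Finset.sum_eq_single_of_mem 0 (Finset.mem_range.2 hr.pos)] at h1
  · simpa using h1
  · intro j hj j0
    rw [← nrm _ (P.pow_mem hbP j) (a ^ j) (P.pow_mem haP j)
      (hbj j (Nat.pos_of_ne_zero j0) (Finset.mem_range.1 hj))]
    refine Finset.sum_congr rfl fun i _ => ?_
    rw [one_mul, Commute.mul_pow (hc a haP _ (P.pow_mem hbP i)), ← pow_mul, ← pow_mul, mul_comm i]

section
variable {G V K : Type*} [Group G] [Finite G] [AddCommGroup V] [DistribMulAction G V] [Finite V]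
  [Nontrivial V] [FaithfulSMul G V] [Field K] [Finite K] [Module K V] {A : Subgroup G}
  {σ : G →* RingAut K} {p : ℕ} [hp : Fact p.Prime] [CharP K p] (h : FS V K A σ)
  (hA : MA A) (hG : ¬ p ∣ Nat.card G)
include h hA hG

theorem G1.pCore_eq_bot {r : ℕ} (hr : r.Prime) (h1 : finrank K V < r)
    (h2 : ¬ r ∣ Nat.card K - 1) : pCore r (centralizer (A : Set G)) = ⊥ := by
  have := Fact.mk hr
  obtain ⟨θ, h3, h4, h5⟩ := exists_theta h hG
  have := hA.nm
  have hp' : IsPGroup r (pCore r (centralizer (A : Set G))) := Solv.pCore_isPGroup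
  have : IsMulCommutative ((pCore r (centralizer (A : Set G))).map (Subgroup.subtype _)) := ⟨⟨by
    rintro ⟨_, a, ha, rfl⟩ ⟨_, b, hb, rfl⟩
    exact Subtype.ext (congrArg Subtype.val (comm_of_lt h3 h4 (h5.trans_lt h1) hp' ha hb) :)⟩⟩
  have h6 := card_dvd_of_le (hA.le
    (B := (pCore r (centralizer (A : Set G))).map (Subgroup.subtype _)) (map_subtype_le _))
  rw [card_map_of_injective (Subgroup.subtype_injective _)] at h6
  obtain ⟨k, hk⟩ := hp'.exists_card_eq
  rcases k with _ | k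
  · exact card_eq_one.1 hk
  · exact absurd (((dvd_pow_self r k.succ_ne_zero).trans (hk ▸ h6)).trans h.card_dvd) h2

theorem exists_not_sq {r : ℕ} (hr : r.Prime) (h1 : finrank K V < r) (h2 : ¬ r ∣ Nat.card K - 1)
    (h3 : ¬ r ∣ (centralizer (A : Set G)).index) (h4 : r ≠ p) :
    ∃ z : V, z ≠ 0 ∧ ¬ r ^ 2 ∣ (stabilizer G z).index := by
  have := Fact.mk hr
  have := hA.nm
  obtain ⟨θ, h5, h6, h7⟩ := exists_theta h hG
  obtain ⟨P⟩ : Nonempty (Sylow r G) := inferInstance
  have pk : ∀ a ∈ (P : Subgroup G), ∃ k, a ^ r ^ k = 1 := fun a ha => by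
    obtain ⟨k, hk⟩ := P.2 ⟨a, ha⟩
    exact ⟨k, congrArg Subtype.val hk⟩
  have hPC : (P : Subgroup G) ≤ centralizer (A : Set G) := fun a ha => by
    obtain ⟨k, hk⟩ := pk a ha
    obtain ⟨m, hm⟩ := exists_pow_eq_self_of_coprime (x := a)
      ((((hr.coprime_iff_not_dvd.2 h3).pow_left k).symm).coprime_dvd_right
        (orderOf_dvd_of_pow_eq_one hk))
    rw [← hm]
    exact pow_mem (pow_index_mem _ a) m
  obtain ⟨z, hz, h8⟩ := G1.short (V := V) hr (fun w hw => by
      rw [← Nat.cast_smul_eq_nsmul K, smul_eq_zero, CharP.cast_eq_zero_iff K p] at hw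
      exact hw.resolve_left fun e => h4 ((Nat.prime_dvd_prime_iff_eq hp.out hr).1 e).symm)
    (P : Subgroup G) (fun a ha b hb => congrArg Subtype.val
      (comm_of_lt h5 h6 (h7.trans_lt h1) (P.2.comap_subtype (K := centralizer (A : Set G)))
        (a := ⟨a, hPC ha⟩) (b := ⟨b, hPC hb⟩) ha hb)) fun a ha => by
      obtain ⟨k, hk⟩ := pk a ha
      have h9 := G1.pow_mem_pCore h5 h6 hr (h7.trans_lt h1) (x := ⟨a, hPC ha⟩) (k := k)
        (Subtype.ext hk)
      rw [G1.pCore_eq_bot h hA hG hr h1 h2, mem_bot] at h9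
      exact congrArg Subtype.val h9
  refine ⟨z, hz, fun hd => ?_⟩
  rw [← index_stabilizer] at h8
  have e : (stabilizer (P : Subgroup G) z).index = (stabilizer G z).relIndex P := rfl
  have h9 := hd.trans (index_dvd_of_le (inf_le_left (a := stabilizer G z) (b := P)))
  rw [← relIndex_mul_index inf_le_right, inf_relIndex_right, ← e] at h9
  have h10 := Nat.le_of_dvd (Nat.pos_of_ne_zero index_ne_zero_of_finite)
    (((hr.coprime_iff_not_dvd.2 P.not_dvd_index).pow_left 2).dvd_of_dvd_mul_right h9)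
  have := hr.one_lt
  nlinarith

end

end CF.T3
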