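import Cfsg.Agent.T3.E

/-! S4881, piece H: a Sylow subgroup that acts by scalars gives many classes. -/

set_option autoImplicit false
set_option linter.unusedSectionVars false

namespace CF.T3
open Subgroup MulAction Module CF.Perm
open scoped LinearAlgebra.Projectivization
universe u

theorem H_scal {P : Type*} {W : Type u} [Group P] [Finite P] [AddCommGroup W]
    [DistribMulAction P W] [Finite W] [Nontrivial W] {p t r m : ℕ} (hp : p.Prime) (hr : r.Prime)
    (h3 : 3 ≤ r) (hP : IsPGroup r P) (hm : Nat.card W = p ^ m) (hle : m ≤ 2 * t)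
    (ho : ∀ i, 1 ≤ i → i < t → ¬ r ∣ p ^ i - 1)
    (irr : ∀ U : AddSubgroup W, (∀ g : P, ∀ w ∈ U, g • w ∈ U) → U = ⊥ ∨ U = ⊤) :
    ∃ (K : Type u) (_ : Field K) (_ : Module K W) (χ : P → K), ∀ (g : P) (w : W),
      g • w = χ g • w := by
  classical
  have := Fact.mk hr
  have := finite_addEnd (V := W)
  let T := DistribMulAction.toAddMonoidEnd P W
  let K := Subring.centralizer (Set.range T)
  letI : Field K := (isField_centralizer (Set.range T)
    (fun U hU => irr U fun g w hw => hU _ ⟨g, rfl⟩ w hw)).toField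
  have hc : SMulCommClass P K W := ⟨fun g k w => DFunLike.congr_fun (k.2 (T g) ⟨g, rfl⟩) w⟩
  refine ⟨K, inferInstance, inferInstance, ?_⟩
  by_cases htriv : ∀ (g : P) (w : W), g • w = w
  · exact ⟨fun _ => 1, fun g w => by rw [htriv, one_smul]⟩
  push Not at htriv
  obtain ⟨g₀, w₀, h₀⟩ := htriv
  -- a central element of order `r`
  have hK : r ∣ Nat.card K - 1 := by
    let f := toPermHom P W
    have hQ : IsPGroup r f.range := hP.of_surjective _ f.rangeRestrict_surjective
    have : Nontrivial f.range := ⟨⟨f g₀, g₀, rfl⟩, 1, fun e =>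
      h₀ (DFunLike.congr_fun (congrArg Subtype.val e) w₀)⟩
    have := hQ.center_nontrivial
    obtain ⟨⟨⟨_, z, rfl⟩, hz⟩, hz1⟩ := exists_ne (1 : center f.range)
    have hzK : T z ∈ K := by
      rintro _ ⟨g, rfl⟩
      have := congrArg Subtype.val (mem_center_iff.1 hz ⟨f g, g, rfl⟩)
      ext w
      exact DFunLike.congr_fun this w
    obtain ⟨j, hj⟩ := hP z
    have e1 : (⟨T z, hzK⟩ : K) ^ r ^ j = 1 := Subtype.ext (by
      change T z ^ r ^ j = 1
      rw [← map_pow, hj, map_one])
    have e2 : (⟨T z, hzK⟩ : K) ≠ 1 := fun e => hz1 (Subtype.ext (Subtype.ext (Equiv.ext fun w =>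
      DFunLike.congr_fun (congrArg Subtype.val e) w)))
    have e0 : (⟨T z, hzK⟩ : K) ≠ 0 := fun e => by
      rw [e, zero_pow (pow_pos hr.pos j).ne'] at e1
      exact zero_ne_one e1
    obtain ⟨i, -, hi⟩ := (Nat.dvd_prime_pow hr).1 (orderOf_dvd_of_pow_eq_one e1)
    have i0 : i ≠ 0 := by
      rintro rfl
      exact e2 (orderOf_eq_one_iff.1 hi)
    rw [← Nat.card_units]
    refine (dvd_pow_self r i0).trans ?_
    rw [← hi, ← Units.val_mk0 e0, orderOf_units]
    exact orderOf_dvd_natCard _
  have hd := Module.natCard_eq_pow_finrank (K := K) (V := W)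
  have d1 : 0 < finrank K W := finrank_pos
  obtain ⟨f, -, hf⟩ := (Nat.dvd_prime_pow hp).1
    (show Nat.card K ∣ p ^ m by rw [← hm, hd]; exact dvd_pow_self _ d1.ne')
  have f1 : 1 ≤ f := by
    rcases f with _ | f
    · exact absurd hf (Finite.one_lt_card (α := K)).ne'
    · omega
  have ft : t ≤ f := by
    by_contra! k
    exact ho f f1 k (hf ▸ hK)
  have d2 : finrank K W ≤ 2 := by
    rw [hm, hf, ← pow_mul] at hd
    have := Nat.pow_right_injective hp.two_le hd
    nlinarith
  have hℙ : ¬ r ∣ Nat.card (ℙ K W) := by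
    rw [Projectivization.card_of_finrank K W rfl]
    have k1 : 1 ≤ Nat.card K := Nat.card_pos
    obtain ⟨c, hc⟩ := hK
    intro k
    interval_cases finrank K W
    · simp at k; omega
    · simp only [Finset.sum_range_succ, Finset.range_zero, Finset.sum_empty, pow_zero, pow_one] at k
      have e : 0 + 1 + Nat.card K = r * c + 2 := by omega
      rw [e] at k
      have := Nat.le_of_dvd two_pos ((Nat.dvd_add_right (dvd_mul_right r c)).1 k)
      omega
  obtain ⟨l, hl⟩ := hP.nonempty_fixed_point_of_prime_not_dvd_card (ℙ K W) hℙ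
  induction l using Projectivization.ind with | h v hv => ?_
  have e : ∀ g : P, ∃ k : K, k • v = g • v := fun g => by
    have := hl g
    rw [Projectivization.smul_mk, Projectivization.mk_eq_mk_iff'] at this
    exact this
  choose χ hχ using e
  have top := (irr (Submodule.span K {v}).toAddSubgroup (fun g w hw => by
    obtain ⟨k, rfl⟩ := Submodule.mem_span_singleton.1 hw
    exact Submodule.mem_span_singleton.2 ⟨k * χ g, by rw [smul_comm g k v, ← hχ, mul_smul]⟩)
    ).resolve_left fun k => hv (by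
      rw [← AddSubgroup.mem_bot, ← k]; exact Submodule.mem_span_singleton_self v)
  refine ⟨χ, fun g w => ?_⟩
  obtain ⟨k, rfl⟩ := Submodule.mem_span_singleton.1
    (show w ∈ (Submodule.span K {v}).toAddSubgroup by rw [top]; trivial)
  rw [smul_comm g k v, ← hχ, smul_comm]

variable {G : Type*} {V : Type u} [Group G] [Finite G] [AddCommGroup V] [DistribMulAction G V]
  [Finite V] [Nontrivial V] [FaithfulSMul G V] {p : ℕ} [hp : Fact p.Prime]

theorem H_charpoly [Module (ZMod p) V] {g k : G} (h : IsConj g k) :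
    (linE (V := V) p g).charpoly = (linE (V := V) p k).charpoly := by
  obtain ⟨c, rfl⟩ := isConj_iff.1 h
  let e : V ≃ₗ[ZMod p] V := LinearEquiv.ofLinear (linE p c) (linE p c⁻¹)
    (by ext; simp [linE_apply]) (by ext; simp [linE_apply])
  rw [← e.charpoly_conj]
  congr 1
  ext w
  simp [e, linE_apply, mul_smul, LinearEquiv.conj_apply]

theorem H_root [Module (ZMod p) V] {K : Type*} [Field K] [CharP K p] (W : AddSubgroup V)
    [Module K W] {g : G} {k : K} (hg : ∀ w : W, g • (w : V) = (k • w : W)) {w : W} (hw : w ≠ 0) :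
    ((linE (V := V) p g).charpoly.map (ZMod.castHom (dvd_refl p) K)).IsRoot k := by
  have h1 : ∀ (i : ℕ) (w : W), (linE (V := V) p g ^ i) w = (k ^ i • w : W) := by
    intro i
    induction i with
    | zero => simp
    | succ i ih => intro w; rw [pow_succ, End.mul_apply, linE_apply, hg, ih, pow_succ, mul_smul]
  have h2 : ∀ q : Polynomial (ZMod p), Polynomial.aeval (linE (V := V) p g) q w =
      ((q.map (ZMod.castHom (dvd_refl p) K)).eval k • w : W) := by
    intro q
    induction q using Polynomial.induction_on' with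
    | add a b ha hb => simp [ha, hb, add_smul]
    | monomial i c =>
      obtain ⟨n, rfl⟩ := ZMod.natCast_zmod_surjective c
      simp [Polynomial.aeval_monomial, h1, mul_smul, Nat.cast_smul_eq_nsmul]
  have := h2 (linE (V := V) p g).charpoly
  rw [LinearMap.aeval_self_charpoly, LinearMap.zero_apply, eq_comm, ZeroMemClass.coe_eq_zero,
    smul_eq_zero] at this
  exact this.resolve_right hw

theorem pow_le_classes (hG : ¬ p ∣ Nat.card G) (hV : ∀ w : V, p • w = 0) {t r a : ℕ}
    (hn : Nat.card V = p ^ (2 * t)) (hr : r.Prime) (h3 : 3 ≤ r)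
    (ho : ∀ i, 1 ≤ i → i < t → ¬ r ∣ p ^ i - 1)
    (ha : ∀ z : V, z ≠ 0 → r ^ a ∣ (stabilizer G z).index) :
    r ^ a ≤ 2 * t * Nat.card (ConjClasses G) := by
  classical
  have := Fact.mk hr
  obtain ⟨_⟩ : Nonempty (Module (ZMod p) V) := ⟨AddCommGroup.zmodModule hV⟩
  have := Fintype.ofFinite (ConjClasses G)
  have hf : finrank (ZMod p) V = 2 * t := by
    have := Module.natCard_eq_pow_finrank (K := ZMod p) (V := V)
    rw [hn, Nat.card_zmod] at this
    exact (Nat.pow_right_injective hp.out.two_le this).symm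
  obtain ⟨P⟩ : Nonempty (Sylow r G) := inferInstance
  obtain ⟨W, ⟨W0, hW⟩, hmin⟩ := Set.Finite.exists_minimal
    (s := {W : AddSubgroup V | W ≠ ⊥ ∧ ∀ g ∈ (P : Subgroup G), ∀ w ∈ W, g • w ∈ W})
    (Set.toFinite _) ⟨⊤, top_ne_bot, fun _ _ _ _ => trivial⟩
  let _ : DistribMulAction (P : Subgroup G) W :=
    { smul := fun g w => ⟨(g : G) • (w : V), hW g g.2 w w.2⟩
      one_smul := fun w => Subtype.ext (one_smul G (w : V))
      mul_smul := fun g k w => Subtype.ext (mul_smul (g : G) (k : G) (w : V))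
      smul_zero := fun g => Subtype.ext (smul_zero (g : G))
      smul_add := fun g v w => Subtype.ext (smul_add (g : G) (v : V) (w : V)) }
  have : Nontrivial W := (AddSubgroup.nontrivial_iff_ne_bot W).2 W0
  obtain ⟨m, hm1, hm⟩ := (Nat.dvd_prime_pow hp.out).1 (hn ▸ W.card_addSubgroup_dvd_card)
  obtain ⟨K, _, _, χ, hχ⟩ := H_scal (W := W) hp.out hr h3 P.isPGroup' hm hm1 ho (fun U hU => by
    refine or_iff_not_imp_left.2 fun U0 => ?_
    have := hmin (y := U.map W.subtype) ⟨fun k => U0 ((AddSubgroup.map_eq_bot_iff_of_injective _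
      W.subtype_injective).1 k), by
        rintro g hg _ ⟨w, hw, rfl⟩
        exact ⟨_, hU ⟨g, hg⟩ w hw, rfl⟩⟩ (AddSubgroup.map_subtype_le U)
    rw [eq_top_iff]
    intro w _
    obtain ⟨v, hv, e⟩ := this w.2
    exact (Subtype.ext e : v = w) ▸ hv)
  obtain ⟨w, hw⟩ := exists_ne (0 : W)
  have : CharP K p := (CharP.charP_iff_prime_eq_zero hp.out).2 (by
    have : (p : K) • w = 0 := by
      rw [Nat.cast_smul_eq_nsmul]; exact Subtype.ext (hV w)
    exact (smul_eq_zero.1 this).resolve_right hw)
  choose ρ hρ using fun C : ConjClasses G => ConjClasses.exists_rep C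
  let F : ConjClasses G → Finset K := fun C =>
    ((linE (V := V) p (ρ C)).charpoly.map (ZMod.castHom (dvd_refl p) K)).roots.toFinset
  have hF : ∀ C, (F C).card ≤ 2 * t := fun C => by
    refine (Multiset.toFinset_card_le _).trans ((Polynomial.card_roots' _).trans ?_)
    rw [Polynomial.natDegree_map, LinearMap.charpoly_natDegree, hf]
  have h1 : r ^ a ∣ (stabilizer (P : Subgroup G) (w : V)).index := by
    have e1 : (stabilizer (P : Subgroup G) (w : V)).index =
        (stabilizer G (w : V)).relIndex P := rfl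
    have e2 := (ha w fun k => hw (Subtype.ext k)).trans
      (index_dvd_of_le (inf_le_left : stabilizer G (w : V) ⊓ P ≤ _))
    rw [← relIndex_mul_index (inf_le_right : stabilizer G (w : V) ⊓ P ≤ _),
      inf_relIndex_right] at e2
    rw [e1]
    exact (Nat.Coprime.pow_left a (hr.coprime_iff_not_dvd.2 P.not_dvd_index)).dvd_of_dvd_mul_right e2
  refine (Nat.le_of_dvd (Nat.pos_of_ne_zero index_ne_zero_of_finite) h1).trans ?_
  rw [index_stabilizer]
  have h2 : orbit (P : Subgroup G) (w : V) ⊆
      ((Finset.univ.biUnion F).image fun k => ((k • w : W) : V) : Finset V) := by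
    rintro _ ⟨g, rfl⟩
    simp only [Finset.coe_image, Finset.coe_biUnion, Finset.coe_univ, Set.mem_univ,
      Set.iUnion_true, Set.mem_image, Set.mem_iUnion, Finset.mem_coe]
    refine ⟨χ g, ⟨ConjClasses.mk (g : G), ?_⟩, (congrArg Subtype.val (hχ g w)).symm⟩
    simp only [F, Multiset.mem_toFinset]
    rw [H_charpoly (ConjClasses.mk_eq_mk_iff_isConj.1 (hρ _)),
      Polynomial.mem_roots ((LinearMap.charpoly_monic _).map _).ne_zero]
    exact H_root W (fun w => congrArg Subtype.val (hχ g w)) hw
  refine (Set.ncard_le_ncard h2).trans ?_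
  rw [Set.ncard_coe_finset]
  refine Finset.card_image_le.trans (Finset.card_biUnion_le.trans ?_)
  refine (Finset.sum_le_card_nsmul _ _ _ fun C _ => hF C).trans ?_
  rw [Finset.card_univ, smul_eq_mul, Nat.card_eq_fintype_card, mul_comm]

end CF.T3
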