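import Cfsg.Agent.T3.Def

/-!
# Two orbits on non-zero vectors: dimension at most two over the field of the frame
-/

set_option autoImplicit false
set_option linter.unusedSectionVars false

namespace CF.T3
open Subgroup MulAction Module Cfsg CF.Perm CF.Crit.Tr

namespace Jx

theorem of_comm {G : Type*} [Group G] [Finite G] (B : Subgroup G) [IsMulCommutative B]
    {p n : ℕ} (hp : 5 ≤ p) (hn : 2 ≤ n) (hB : B.index ≤ n) (h : p ^ n ≤ 2 * Nat.card G + 1) :
    p ≤ 2 * Nat.card (ConjClasses G) := by
  by_contra k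
  have b := (Cfsg.Agent.S4200.result B).1
  rw [classes_of_comm] at b
  have d := num_lt hp hn
  have e := Nat.mul_le_mul (b.trans (Nat.mul_le_mul_right _ hB)) hB
  rw [B.card_mul_index] at e
  have g := Nat.mul_le_mul_left (n * n) (by omega : 2 * Nat.card (ConjClasses G) ≤ p - 1)
  have : n * n * (2 * Nat.card (ConjClasses G)) = 2 * (n * Nat.card (ConjClasses G) * n) := by ring
  omega

theorem big {p f : ℕ} (hp : 11 ≤ p) (hf : 3 ≤ f) : 120 * f < p ^ f := by
  refine lt_of_lt_of_le ?_ (Nat.pow_le_pow_left hp f)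
  induction f, hf using Nat.le_induction with
  | base => norm_num
  | succ n hn ih => rw [pow_succ]; omega

theorem not_dvd {p : ℕ} (hp : 11 ≤ p) : ¬ p ^ 2 + 1 ∣ 480 := fun h => by
  have h1 := Nat.le_of_dvd (by decide) h
  have h2 : p ≤ 21 := by nlinarith
  interval_cases p <;> revert h <;> decide

theorem last {p a m u c : ℕ} (hp : 11 ≤ p) (hm : p - 1 = a * m) (h7 : 7 ≤ m) (hu : 0 < u)
    (h : (p + 1) * m * u = 2 * c) (hc : c = 12 ∨ c = 24 ∨ c = 60) : a = 1 ∧ u = 1 ∧ c = 60 := by
  have h1 : 84 ≤ (p + 1) * m := by nlinarith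
  have h2 : u = 1 := by
    by_contra k
    have := Nat.mul_le_mul h1 (by omega : 2 ≤ u)
    omega
  subst h2
  have h3 : c = 60 := by omega
  subst h3
  have h4 : m ≤ 10 := by nlinarith
  have h5 : p ≤ 17 := by nlinarith
  refine ⟨?_, rfl, rfl⟩
  interval_cases m <;> omega

theorem central {G V : Type*} [Group G] [AddCommGroup V] [DistribMulAction G V] [FaithfulSMul G V]
    {t : G} (h2 : t * t = 1) (h : ∀ v : V, t • v = v → v = 0) : t ∈ center G := by
  have e : ∀ v : V, t • v = -v := fun v => eq_neg_of_add_eq_zero_left (h _ (by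
    rw [smul_add, ← mul_smul, h2, one_smul, add_comm]))
  exact mem_center_iff.2 fun g => eq_of_smul_eq_smul fun v : V => by
    rw [mul_smul, mul_smul, e, e, smul_neg]

end Jx

open Jx

section
variable {G V K : Type*} [Group G] [Finite G] [AddCommGroup V] [DistribMulAction G V] [Finite V]
  [Nontrivial V] [FaithfulSMul G V] [Field K] [Finite K] [Module K V] {A : Subgroup G}
  {σ : G →* RingAut K} {p : ℕ} [hp : Fact p.Prime] [CharP K p] (h : FS V K A σ)
  (hA : MA A) (hG : ¬ p ∣ Nat.card G)
include h hA hG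

theorem small_d {x y : V} (hT : Two G x y) (h11 : 11 ≤ p) (hn : Nat.card V ≠ p)
    (hd : finrank K V ≤ 2) (hb : (∀ z : V, z ≠ 0 → 2 * (stabilizer G z).index + 1 = Nat.card V) ∨
      p ^ 5 ≤ Nat.card V) : p ≤ 2 * Nat.card (ConjClasses G) := by
  have := Fintype.ofFinite K
  have := hA.nm
  have := hA.comm
  obtain ⟨⟨f, f0⟩, -, hf⟩ := FiniteField.card K p
  rw [← Nat.card_eq_fintype_card, PNat.mk_coe] at hf
  have hi : (centralizer (A : Set G)).index ∣ f := by
    rw [← h.ker, index_ker, ← Chev.card_ringAut (F := K) (Nat.card_eq_fintype_card.symm.trans hf)]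
    exact card_subgroup_dvd_card _
  have hs := Nat.le_of_dvd f0 hi
  have h4 := Module.natCard_eq_pow_finrank (K := K) (V := V)
  have hd0 : 0 < finrank K V := finrank_pos
  have h5 := hT.card_le
  have h6 := h.card_dvd
  rw [hf, ← pow_mul] at h4
  have e2 : 2 ≤ f * finrank K V := by
    have := Nat.mul_pos f0 hd0
    have : f * finrank K V ≠ 1 := fun e => hn (by rw [h4, e, pow_one])
    omega
  rcases (by omega : finrank K V = 1 ∨ finrank K V = 2) with d1 | d2
  · refine of_comm A (by omega) e2 ?_ (h4 ▸ h5)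
    rw [cent_eq h hA d1] at hs
    rwa [d1, mul_one]
  obtain ⟨θ, t1, t2, t3⟩ := exists_theta h hG
  rcases deg_two t1 t2 (t3.trans hd) with ⟨B, _, k⟩ | ⟨c, -⟩
  · have : IsMulCommutative (B.map (centralizer (A : Set G)).subtype) := ⟨⟨by
      rintro ⟨_, a, ha, rfl⟩ ⟨_, b, hb, rfl⟩
      exact Subtype.ext (congrArg (fun z : B => ((z : centralizer (A : Set G)) : G))
        (IsMulCommutative.is_comm.comm (⟨a, ha⟩ : B) ⟨b, hb⟩) :)⟩⟩
    refine of_comm (B.map (centralizer (A : Set G)).subtype) (by omega) e2 ?_ (h4 ▸ h5)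
    rw [index_map_subtype, d2, mul_comm f]
    exact Nat.mul_le_mul k hs
  have hZ : (center (centralizer (A : Set G))).map (centralizer (A : Set G)).subtype = A := by
    have : IsMulCommutative
        ((center (centralizer (A : Set G))).map (centralizer (A : Set G)).subtype) := ⟨⟨by
      rintro ⟨_, a, ha, rfl⟩ ⟨_, b, hb, rfl⟩
      exact Subtype.ext (congrArg Subtype.val (mem_center_iff.1 hb a) :)⟩⟩
    refine le_antisymm (hA.le (map_subtype_le _)) fun a ha =>
      ⟨⟨a, le_centralizer A ha⟩, mem_center_iff.2 fun g => Subtype.ext (g.2 a ha).symm, rfl⟩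
  have h7 := A.card_mul_index
  have h8 : A.index = (center (centralizer (A : Set G))).index *
      (centralizer (A : Set G)).index := by
    rw [← index_map_subtype, hZ]
  generalize (center (centralizer (A : Set G))).index = c' at c h8
  have d6 := Nat.card_pos (α := A)
  obtain ⟨m, hm⟩ := h6
  rw [hf] at hm
  rw [d2, pow_mul] at h4
  have q2 : 11 ≤ p ^ f := h11.trans (Nat.le_self_pow f0.ne' p)
  have hv : Nat.card V = (p ^ f + 1) * (Nat.card A * m) + 1 := by
    rw [← hm, h4, ← Nat.sq_sub_sq, one_pow]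
    exact (Nat.sub_add_cancel (Nat.one_le_pow _ _ (by omega))).symm
  have m0 : 0 < m := Nat.pos_of_ne_zero fun e => by
    rw [e, mul_zero] at hm
    omega
  have f3 : f < 3 := by
    by_contra k
    have a1 := big h11 (not_lt.1 k)
    have a2 : A.index ≤ 60 * f := h8 ▸ Nat.mul_le_mul (by omega) hs
    have a3 : (p ^ f + 1) * (Nat.card A * m) ≤ 2 * (Nat.card A * A.index) := by omega
    have a4 : Nat.card A * (p ^ f + 1) ≤ Nat.card A * (120 * f) := by
      have := Nat.mul_le_mul_left (p ^ f + 1) (Nat.le_mul_of_pos_right (Nat.card A) m0)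
      have := Nat.mul_le_mul_left (Nat.card A) a2
      nlinarith
    have := Nat.le_of_mul_le_mul_left a4 d6
    omega
  rcases hb with hb | hb
  swap
  · rw [h4, ← pow_mul] at hb
    have := (Nat.pow_le_pow_iff_right (by omega : 1 < p)).1 hb
    omega
  have hu : ∀ z : V, z ≠ 0 → (p ^ f + 1) * m * Nat.card (stabilizer G z) = 2 * A.index :=
    fun z hz => by
    refine Nat.eq_of_mul_eq_mul_left d6 ?_
    have a1 := hb z hz
    have a2 := (stabilizer G z).card_mul_index
    have a3 : (p ^ f + 1) * (Nat.card A * m) = 2 * (stabilizer G z).index := by omega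
    calc Nat.card A * ((p ^ f + 1) * m * Nat.card (stabilizer G z))
        = (p ^ f + 1) * (Nat.card A * m) * Nat.card (stabilizer G z) := by ring
      _ = 2 * (Nat.card (stabilizer G z) * (stabilizer G z).index) := by rw [a3]; ring
      _ = _ := by rw [a2, ← h7]; ring
  rcases (by omega : f = 2 ∨ f = 1) with rfl | rfl
  · refine absurd ?_ (not_dvd h11)
    have a1 : p ^ 2 + 1 ∣ 2 * A.index := hu x hT.x0 ▸ (dvd_mul_right _ _).mul_right _
    have a2 : c' ∣ 120 := by rcases c with e | e | e <;> rw [e] <;> decide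
    exact a1.trans (h8 ▸ Nat.mul_dvd_mul_left 2 (Nat.mul_dvd_mul a2 hi))
  have a := index_eq_one.1 (Nat.dvd_one.1 hi)
  rw [a, index_top, mul_one] at h8
  subst h8
  rw [pow_one] at hu hm
  have hc := eq_center h hA a
  have d1 := classes_ge_central hc.le (i := 2) (j := 2)
    (by rcases c with e | e | e <;> rw [e] <;> decide)
    (by rcases c with e | e | e <;> rw [e] <;> decide)
  by_cases k : m ≤ 6
  · have := Nat.mul_le_mul_left (Nat.card A) k
    omega
  exfalso
  have l := fun z hz => last h11 hm (by omega) Nat.card_pos (hu z hz) c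
  obtain ⟨l1, -, l2⟩ := l x hT.x0
  have := Fact.mk Nat.prime_two
  obtain ⟨t, ht⟩ := exists_prime_orderOf_dvd_card' (G := G) 2 (by rw [← h7, l1, l2]; decide)
  have t0 : t ≠ 1 := by
    rintro rfl
    simp at ht
  refine t0 (mem_bot.1 (card_eq_one.1 l1 ▸ hc ▸ central (V := V)
    (by rw [← pow_two, ← ht, pow_orderOf_eq_one]) fun v hv => by_contra fun k => t0 ?_))
  exact mem_bot.1 (card_eq_one.1 (l v k).2.1 ▸ mem_stabilizer_iff.2 hv)

end

end CF.T3
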