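import Cfsg.Agent.Fgs2.Zsigmondy

/-! Large primitive prime divisors of `p ^ t - 1` (S4881, piece N). -/

set_option autoImplicit false

namespace CF.T3
open CF.Fgs2

namespace Np

/-- the product of the small candidates -/
def NN (t : ℕ) : ℕ := (2 * t + 1) * (3 * t + 1) * (4 * t + 1)

/-- the exceptional pairs -/
def ex : List (ℕ × ℕ) :=
  [(13, 4), (47, 4), (17, 6), (31, 6), (16, 3), (18, 4), (21, 4), (57, 4), (12, 6)]

/-- `m` is a primitive divisor that is too large -/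
def gd (p t m : ℕ) : Bool :=
  ex.contains (p, t) || (decide ((p ^ t - 1) % m = 0) && decide (p * t ≤ (t + 1) ^ 12) &&
    ((List.range' 1 (t - 1)).all fun i => Nat.gcd m (p ^ i - 1) == 1) &&
    (List.range 12).all fun a => decide (p * t ≤ (t + 1) ^ a) ||
      decide ((t + 1) ^ a * NN t % m ≠ 0))

/-- the size bound -/
def bg (p t : ℕ) : Bool := decide (4 * t * t * NN t < p ^ (phiC t - 1))

theorem all1 : ((List.range' 3 448).all fun t => bg 11 t ||
    ((bg 300 t || [3, 4, 6].contains t) &&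
      (List.range' 11 289).all fun p => bg p t || gd p t (ppC p t))) = true := by
  decide +kernel

theorem all4 : ((List.range' 300 10400).all fun p => 95720625000 % (p * p + 1) != 0) = true := by
  decide +kernel

theorem all6 : ((List.range' 299 17500).all fun u =>
    115074839880 % (u * u + u + 1) != 0) = true := by
  decide +kernel

theorem dvd_aux {m f n A : ℕ} (h1 : m ∣ f) (h2 : f ≤ 12 * m + 1) (h3 : 13 < f) (h4 : m ∣ n)
    (h5 : A = 27720 * n) : f ∣ A := by
  obtain ⟨c, rfl⟩ := h1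
  have hm : 2 ≤ m := by omega
  have hc : c ≤ 12 := by nlinarith
  have h0 : c ≠ 0 := by rintro rfl; simp at h3
  have : c ∣ 27720 := by interval_cases c <;> first | omega | norm_num
  rw [h5, mul_comm m]
  exact Nat.mul_dvd_mul this h4

theorem big_tot {t : ℕ} (ht : 451 ≤ t) : 4 * t * t * NN t < 11 ^ (t.totient - 1) := by
  have h1 := (le_two_mul_totient_sq t).1
  set f := t.totient
  have hf : 16 ≤ f := by
    by_contra h
    have : f ≤ 15 := by omega
    nlinarith
  have key : ∀ c : ℕ, 4 * (2 * (c + 16) ^ 2) * (2 * (c + 16) ^ 2) * NN (2 * (c + 16) ^ 2) <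
      11 ^ (c + 15) := by
    intro c
    induction c with
    | zero => decide
    | succ c ih =>
      rw [show c + 1 + 15 = c + 15 + 1 by ring, pow_succ 11]
      have : 4 * (2 * (c + 1 + 16) ^ 2) * (2 * (c + 1 + 16) ^ 2) * NN (2 * (c + 1 + 16) ^ 2) ≤
          4 * (2 * (c + 16) ^ 2) * (2 * (c + 16) ^ 2) * NN (2 * (c + 16) ^ 2) * 11 := by
        unfold NN
        ring_nf
        omega
      omega
  obtain ⟨c, hc⟩ := Nat.exists_eq_add_of_le' hf
  rw [hc] at h1 ⊢
  refine lt_of_le_of_lt ?_ (key c)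
  unfold NN
  gcongr

/-- the target -/
def Tg (p t : ℕ) : Prop :=
  ∃ r : ℕ, r.Prime ∧ r ∣ p ^ t - 1 ∧ (∀ i, 1 ≤ i → i < t → ¬ r ∣ p ^ i - 1) ∧
    ((r ≠ t + 1 ∧ (r ^ 2 ∣ p ^ t - 1 ∨ ¬ r ∣ (2 * t + 1) * (3 * t + 1) * (4 * t + 1))) ∨
      (r = t + 1 ∧ ∃ a, r ^ a ∣ p ^ t - 1 ∧ p * t ≤ r ^ a))

theorem key {p t m : ℕ} (hp : 2 ≤ p) (ht : 3 ≤ t) (hn : ¬ Tg p t) (h1 : m ∣ p ^ t - 1)
    (h2 : ∀ i, 1 ≤ i → i < t → m.Coprime (p ^ i - 1)) :
    ∃ a, (t + 1) ^ a < p * t ∧ (a = 0 ∨ (t + 1).Prime) ∧ m ∣ (t + 1) ^ a * NN t := by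
  have hm : m ≠ 0 := by
    rintro rfl
    have := Nat.one_lt_pow (n := t) (by omega) (by omega : 1 < p)
    have := Nat.eq_zero_of_zero_dvd h1
    omega
  have pr : ∀ r : ℕ, r.Prime → r ∣ m → ∀ i, 1 ≤ i → i < t → ¬ r ∣ p ^ i - 1 :=
    fun r hr h5 i a b c => hr.one_lt.ne' (Nat.eq_one_of_dvd_coprimes (h2 i a b) h5 c)
  have ha : m.factorization (t + 1) = 0 ∨ (t + 1).Prime :=
    or_iff_not_imp_right.2 (Nat.factorization_eq_zero_of_not_prime m)
  refine ⟨m.factorization (t + 1), ?_, ha, ?_⟩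
  · by_cases h0 : m.factorization (t + 1) = 0
    · rw [h0, pow_zero]; nlinarith
    · have hs := ha.resolve_left h0
      have h5 : t + 1 ∣ m := (dvd_pow_self _ h0).trans (Nat.ordProj_dvd m _)
      by_contra hc
      exact hn ⟨t + 1, hs, h5.trans h1, pr _ hs h5,
        .inr ⟨rfl, _, (Nat.ordProj_dvd m _).trans h1, not_lt.1 hc⟩⟩
  · rw [Nat.dvd_iff_prime_pow_dvd_dvd]
    intro r k hr h3
    by_cases e : r = t + 1
    · subst e
      exact (pow_dvd_pow _ ((hr.pow_dvd_iff_le_factorization hm).1 h3)).trans (dvd_mul_right _ _)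
    rcases Nat.eq_zero_or_pos k with rfl | hk
    · simp
    have h5 : r ∣ m := (dvd_pow_self r hk.ne').trans h3
    have h6 : ¬ (r ^ 2 ∣ p ^ t - 1 ∨ ¬ r ∣ NN t) := fun h =>
      hn ⟨r, hr, h5.trans h1, pr r hr h5, .inl ⟨e, h⟩⟩
    push Not at h6
    have : k = 1 := by
      by_contra h7
      exact h6.1 ((pow_dvd_pow r (by omega)).trans (h3.trans h1))
    rw [this, pow_one]
    exact h6.2.mul_left _

theorem of_gd {p t m : ℕ} (hp : p.Prime) (ht : 3 ≤ t)
    (hex : (p, t) ∉ [(13, 4), (47, 4), (17, 6), (31, 6)]) (h : gd p t m = true) : Tg p t := by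
  by_contra hn
  simp only [gd, Bool.and_eq_true, decide_eq_true_eq, Bool.or_eq_true, List.all_eq_true,
    List.contains_iff_mem, beq_iff_eq] at h
  rcases h with h | ⟨⟨⟨h1, h2⟩, h3⟩, h4⟩
  · simp only [ex, List.mem_cons, Prod.mk.injEq, List.not_mem_nil, or_false, not_or] at h hex
    rcases h with h | h | h | h | h | h | h | h | h
    · exact hex.1 h
    · exact hex.2.1 h
    · exact hex.2.2.1 h
    · exact hex.2.2.2 h
    all_goals (rw [h.1] at hp; norm_num at hp)
  obtain ⟨a, a1, -, a3⟩ := key hp.two_le ht hn (Nat.dvd_of_mod_eq_zero h1)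
    fun i a b => h3 i (List.mem_range'_1.2 ⟨a, by omega⟩)
  have : a < 12 := (Nat.pow_lt_pow_iff_right (by omega : 1 < t + 1)).1 (a1.trans_le h2)
  rcases h4 a (List.mem_range.2 this) with h | h
  · omega
  · exact h (Nat.mod_eq_zero_of_dvd a3)

theorem main {p t : ℕ} (hp : p.Prime) (h11 : 11 ≤ p) (ht : 3 ≤ t)
    (hex : (p, t) ∉ [(13, 4), (47, 4), (17, 6), (31, 6)]) : Tg p t := by
  by_contra hn
  obtain ⟨m, r, h1, h2, h3, h4⟩ := exists_primitive_part (by omega : 2 ≤ p) ht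
  have h5 := pow_totient_le_cyc (by omega : 2 ≤ p) (by omega : 0 < t)
  obtain ⟨a, a1, a2, a3⟩ := key hp.two_le ht hn h1 h2
  rw [h3] at h5
  have hrt : r ≤ t := by
    rcases h4 with rfl | h4
    · omega
    · exact Nat.le_of_dvd (by omega) h4.2
  have nb : ∀ b, b ≤ p → ¬ 4 * t * t * NN t < b ^ (t.totient - 1) := by
    intro b hb h
    have e : p ^ t.totient = p ^ (t.totient - 1) * p := by
      rw [← pow_succ, Nat.sub_add_cancel (Nat.totient_pos.2 (by omega))]
    have l1 : m ≤ p * t * NN t := (Nat.le_of_dvd (by unfold NN; positivity) a3).trans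
      (Nat.mul_le_mul_right _ a1.le)
    have l2 := h.trans_le (Nat.pow_le_pow_left hb _)
    have l3 : 4 * (r * m) ≤ 4 * t * t * NN t * p := by
      calc 4 * (r * m) ≤ 4 * (t * (p * t * NN t)) := by gcongr
        _ = _ := by ring
    have l4 := Nat.mul_lt_mul_of_pos_right l2 hp.pos
    omega
  have nb' : ∀ b, b ≤ p → bg b t ≠ true := fun b hb h => by
    simp only [bg, decide_eq_true_eq, phiC_eq] at h
    exact nb b hb h
  by_cases hbig : 451 ≤ t
  · exact nb 11 h11 (big_tot hbig)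
  have h6 := List.all_eq_true.1 all1 t (List.mem_range'_1.2 ⟨ht, by omega⟩)
  simp only [Bool.and_eq_true, Bool.or_eq_true, List.all_eq_true, List.contains_iff_mem] at h6
  obtain ⟨h6, h7⟩ := h6.resolve_left (nb' 11 h11)
  by_cases h300 : p < 300
  · exact hn (of_gd hp ht hex
      ((h7 p (List.mem_range'_1.2 ⟨h11, by omega⟩)).resolve_left (nb' p le_rfl)))
  have h8 := h6.resolve_left (nb' 300 (by omega))
  have r3 : r ≤ 3 := by
    rcases h4 with rfl | ⟨h4, h9⟩
    · omega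
    have : r ∣ 2 ^ 2 * 3 := h9.trans (by
      simp only [List.mem_cons, List.not_mem_nil, or_false] at h8
      rcases h8 with rfl | rfl | rfl <;> norm_num)
    rcases (Nat.Prime.dvd_mul h4).1 this with h | h
    · exact (Nat.le_of_dvd two_pos (h4.dvd_of_dvd_pow h)).trans (by omega)
    · exact Nat.le_of_dvd three_pos h
  have fer : ∀ s : ℕ, s.Prime → s < p → s - 1 < t → m.Coprime s := by
    intro s hs h9 h10
    refine (h2 (s - 1) (by have := hs.two_le; omega) h10).coprime_dvd_right ?_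
    have := Nat.ModEq.pow_totient ((Nat.coprime_primes hp hs).2 (by omega))
    rw [Nat.totient_prime hs] at this
    exact (Nat.modEq_iff_dvd' (Nat.one_le_pow _ _ hp.pos)).1 this.symm
  have l5 : p ^ t.totient ≤ 12 * m := h5.trans (by nlinarith)
  simp only [List.mem_cons, List.not_mem_nil, or_false] at h8
  rcases h8 with rfl | rfl | rfl
  · have a0 : a = 0 := a2.resolve_right (by norm_num)
    rw [a0, show (3 + 1) ^ 0 * NN 3 = 910 by decide] at a3
    have := Nat.le_of_dvd (by norm_num) a3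
    rw [show Nat.totient 3 = 2 by decide] at l5
    nlinarith
  · rw [show NN 4 = 221 * 3 ^ 2 by decide, ← mul_assoc] at a3
    have a4 := ((fer 3 (by norm_num) (by omega) (by norm_num)).pow_right 2).dvd_of_dvd_mul_right a3
    have := Nat.le_of_dvd (by positivity) a4
    rw [show Nat.totient 4 = 2 by decide] at l5
    have h9 : p < 10700 := by nlinarith
    have a5 : a < 7 := (Nat.pow_lt_pow_iff_right (by omega : 1 < 4 + 1)).1 (by omega)
    have a6 : m ∣ 5 ^ 6 * 221 :=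
      a4.trans (Nat.mul_dvd_mul_right (pow_dvd_pow _ (by omega)) _)
    have e : p ^ 4 - 1 = (p * p + 1) * (p ^ 2 - 1) := by
      zify [Nat.one_le_pow 4 p hp.pos, Nat.one_le_pow 2 p hp.pos]; ring
    rw [e] at h1
    have a7 := (h2 2 (by omega) (by omega)).dvd_of_dvd_mul_right h1
    have a8 := List.all_eq_true.1 all4 p (List.mem_range'_1.2 ⟨by omega, by omega⟩)
    exact (bne_iff_ne.1 a8) (Nat.mod_eq_zero_of_dvd
      (dvd_aux a7 (by nlinarith) (by nlinarith) a6 (by norm_num)))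
  · rw [show NN 6 = 247 * 5 ^ 2 by decide, ← mul_assoc] at a3
    have a4 := ((fer 5 (by norm_num) (by omega) (by norm_num)).pow_right 2).dvd_of_dvd_mul_right a3
    have := Nat.le_of_dvd (by positivity) a4
    rw [show Nat.totient 6 = 2 by decide] at l5
    have h9 : p < 17800 := by nlinarith
    have a5 : a < 6 := (Nat.pow_lt_pow_iff_right (by omega : 1 < 6 + 1)).1 (by omega)
    have a6 : m ∣ 7 ^ 5 * 247 :=
      a4.trans (Nat.mul_dvd_mul_right (pow_dvd_pow _ (by omega)) _)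
    obtain ⟨u, rfl⟩ : ∃ u, p = u + 1 := ⟨p - 1, by omega⟩
    have e : (u + 1) ^ 6 - 1 = (u * u + u + 1) * (u + 2) * ((u + 1) ^ 3 - 1) := by
      zify [Nat.one_le_pow 6 _ hp.pos, Nat.one_le_pow 3 _ hp.pos]; ring
    have e2 : (u + 1) ^ 2 - 1 = (u + 2) * u := by
      zify [Nat.one_le_pow 2 _ hp.pos]; ring
    rw [e] at h1
    have c2 := h2 2 (by omega) (by omega)
    rw [e2] at c2
    have a7 := (c2.coprime_dvd_right (dvd_mul_right _ _)).dvd_of_dvd_mul_right
      ((h2 3 (by omega) (by omega)).dvd_of_dvd_mul_right h1)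
    have a8 := List.all_eq_true.1 all6 u (List.mem_range'_1.2 ⟨by omega, by omega⟩)
    exact (bne_iff_ne.1 a8) (Nat.mod_eq_zero_of_dvd
      (dvd_aux a7 (by nlinarith) (by nlinarith) a6 (by norm_num)))

end Np

theorem exists_big_plus {p t : ℕ} (hp : p.Prime) (h11 : 11 ≤ p) (ht : 3 ≤ t)
    (hex : (p, t) ∉ [(13, 4), (47, 4), (17, 6), (31, 6)]) :
    ∃ r : ℕ, r.Prime ∧ r ∣ p ^ t - 1 ∧ (∀ i, 1 ≤ i → i < t → ¬ r ∣ p ^ i - 1) ∧
      ((r ≠ t + 1 ∧ (r ^ 2 ∣ p ^ t - 1 ∨ ¬ r ∣ (2 * t + 1) * (3 * t + 1) * (4 * t + 1))) ∨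
        (r = t + 1 ∧ ∃ a, r ^ a ∣ p ^ t - 1 ∧ p * t ≤ r ^ a)) :=
  Np.main hp h11 ht hex

end CF.T3
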