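import Cfsg.Agent.S4878
import Cfsg.Agent.T3.Def

/-!
# Three classes of `p`-elements: reduction to the linear case
-/

set_option autoImplicit false
set_option linter.unusedSectionVars false

namespace CF.T3
open Subgroup Cfsg CF.Perm CF.Solv CF.Crit.Tr
open scoped IsMulCommutative Pointwise
universe u

/-- the linear theorem -/
def L2 (p : ℕ) : Prop :=
  ∀ (G V : Type u) [Group G] [Finite G] [AddCommGroup V] [DistribMulAction G V] [Finite V]
    [Nontrivial V] [FaithfulSMul G V] (x y : V), ¬ p ∣ Nat.card G → (∀ w : V, p • w = 0) →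
    Two G x y → p ≤ 2 * Nat.card (ConjClasses G) ∨ (Nat.card V = p ∧ 2 * Nat.card G + 1 = p)

/-- at most two classes of non-trivial `p`-elements -/
def PE (p : ℕ) (G : Type*) [Group G] : Prop :=
  ∃ x y : G, ∀ z : G, z ≠ 1 → (∃ k, orderOf z = p ^ k) → IsConj x z ∨ IsConj y z

/-- the extremal groups -/
def EX (p : ℕ) (G : Type*) [Group G] : Prop :=
  p ≠ 2 ∧ 2 * Nat.card G = p * (p - 1) ∧ ∃ f : G →* affineGroup (ZMod p), Function.Injective f

variable {G : Type*} [Group G] [Finite G] {p : ℕ} [hp : Fact p.Prime]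

theorem R_rc {K : Type*} [Group K] (f : G →* K) (hf : Function.Surjective f) :
    Nat.card (RC p K) ≤ Nat.card (RC p G) ∧ ∀ x : G, x ≠ 1 → f x = 1 → ¬ p ∣ orderOf x →
      Nat.card (RC p K) < Nat.card (RC p G) := by
  let m : RC p G → RC p K := fun c => ⟨ConjClasses.map f c.1, by
    obtain ⟨g, h1, h2⟩ := c.2
    exact ⟨f g, h1 ▸ rfl, fun k => h2 (k.trans (orderOf_map_dvd f g))⟩⟩
  have hm : Function.Surjective m := by
    rintro ⟨_, y, rfl, hy⟩
    obtain ⟨x, rfl⟩ := hf y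
    obtain ⟨z, -, h1, h2⟩ := SolvStr.exists_piNum_lift (π := {p}ᶜ) f (x := x) fun q _ a b =>
      hy (b ▸ a)
    exact ⟨⟨ConjClasses.mk z, z, rfl, fun k => h1 p hp.out k rfl⟩,
      Subtype.ext (congrArg ConjClasses.mk h2)⟩
  refine ⟨Nat.card_le_card_of_surjective m hm, fun x x1 x2 x3 => ?_⟩
  refine lt_of_le_of_ne (Nat.card_le_card_of_surjective m hm) fun e => x1 ?_
  have hi := (hm.bijective_of_nat_card_le e.ge).1
  have := @hi ⟨ConjClasses.mk 1, 1, rfl, by simpa using hp.out.ne_one⟩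
    ⟨ConjClasses.mk x, x, rfl, x3⟩
    (Subtype.ext (congrArg ConjClasses.mk ((map_one f).trans x2.symm)))
  exact isConj_one_right.1 (ConjClasses.mk_eq_mk_iff_isConj.1 (congrArg Subtype.val this))

theorem PE.of_card (h3 : Nat.card {c : ConjClasses G //
    ∃ g : G, ConjClasses.mk g = c ∧ ∃ k : ℕ, orderOf g = p ^ k} = 3) :
    PE p G ∧ p ∣ Nat.card G := by
  let c1 : {c : ConjClasses G // ∃ g : G, ConjClasses.mk g = c ∧ ∃ k : ℕ, orderOf g = p ^ k} :=
    ⟨ConjClasses.mk 1, 1, rfl, 0, by simp⟩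
  have h := Set.ncard_add_ncard_compl ({c1} : Set _)
  rw [h3, Set.ncard_singleton] at h
  obtain ⟨a, b, -, hab⟩ := Set.ncard_eq_two.1 (show ({c1}ᶜ : Set _).ncard = 2 by omega)
  have ha : a ≠ c1 := by
    have : a ∈ ({c1}ᶜ : Set _) := by rw [hab]; simp
    exact this
  obtain ⟨x, x1, k, x2⟩ := a.2
  obtain ⟨y, y1, -⟩ := b.2
  refine ⟨⟨x, y, fun z z1 z2 => ?_⟩, ?_⟩
  · have : (⟨ConjClasses.mk z, z, rfl, z2⟩ : {c : ConjClasses G //
        ∃ g : G, ConjClasses.mk g = c ∧ ∃ k : ℕ, orderOf g = p ^ k}) ∈ ({c1}ᶜ : Set _) :=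
      fun e => z1 (isConj_one_left.1
        (ConjClasses.mk_eq_mk_iff_isConj.1 (congrArg Subtype.val e)))
    rw [hab] at this
    rcases this with e | e
    · exact .inl (ConjClasses.mk_eq_mk_iff_isConj.1 (x1.trans (congrArg Subtype.val e).symm))
    · exact .inr (ConjClasses.mk_eq_mk_iff_isConj.1 (y1.trans (congrArg Subtype.val e).symm))
  · refine dvd_trans ?_ (orderOf_dvd_natCard x)
    rw [x2]
    refine dvd_pow_self p fun e => ha (Subtype.ext ?_)
    rw [e, pow_zero, orderOf_eq_one_iff] at x2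
    rw [← x1, x2]

theorem PE.map (h : PE p G) {K : Type*} [Group K] (f : G →* K) (hf : Function.Surjective f) :
    PE p K := by
  obtain ⟨x, y, h⟩ := h
  refine ⟨f x, f y, fun z z1 ⟨k, hk⟩ => ?_⟩
  obtain ⟨z, rfl⟩ := hf z
  obtain ⟨a, -, a1, a2⟩ := Transfer.exists_pElt_lift f (isOfFinOrder_of_finite z) hk
  rw [← a2]
  exact (h a (by rintro rfl; exact z1 (a2 ▸ map_one f)) a1).imp f.map_isConj f.map_isConj

theorem PE.conj (h : PE p G) {v w z : G} (v1 : v ≠ 1) (w1 : w ≠ 1) (z1 : z ≠ 1)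
    (v2 : ∃ k, orderOf v = p ^ k) (w2 : ∃ k, orderOf w = p ^ k) (z2 : ∃ k, orderOf z = p ^ k)
    (hn : ¬ IsConj v w) : IsConj v z ∨ IsConj w z := by
  obtain ⟨x, y, h⟩ := h
  rcases h v v1 v2 with a | a <;> rcases h w w1 w2 with b | b <;> rcases h z z1 z2 with c | c
  · exact .inl (a.symm.trans c)
  · exact absurd (a.symm.trans b) hn
  · exact .inl (a.symm.trans c)
  · exact .inr (b.symm.trans c)
  · exact .inr (b.symm.trans c)
  · exact .inl (a.symm.trans c)
  · exact absurd (a.symm.trans b) hn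
  · exact .inl (a.symm.trans c)

theorem R_one (hs : IsPSolvable p G) (hd : p ∣ Nat.card G)
    (h : ∀ x y : G, x ≠ 1 → y ≠ 1 → (∃ k, orderOf x = p ^ k) → (∃ k, orderOf y = p ^ k) →
      IsConj x y) : p ≤ 2 * Nat.card (RC p G) := by
  have h2 := hp.out.two_le
  have : p ≤ Nat.card (RC p G) ∨ (Nat.card (RC p G) = _ ∧ _) ∨ (_ ∧ Nat.card (RC p G) = _ ∧ _) :=
    Cfsg.Agent.S4878.result p hs hd h
  rcases this with k | ⟨k, -⟩ | ⟨k, l, -⟩ <;> omega

theorem R_quot (hs : IsPSolvable p G) (h : PE p G) (V : Subgroup G) [hV : V.Normal] {v : G}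
    (hv : v ∈ V) (v1 : v ≠ 1) (v2 : ∃ k, orderOf v = p ^ k) (hd : p ∣ V.index) :
    p ≤ 2 * Nat.card (RC p G) := by
  let π := QuotientGroup.mk' V
  have hπ := QuotientGroup.mk'_surjective V
  refine (R_one (isPSolvable_quotient hs V) hd fun x y x1 y1 ⟨k, hk⟩ ⟨l, hl⟩ => ?_).trans
    (Nat.mul_le_mul_left 2 (R_rc π hπ).1)
  obtain ⟨x, rfl⟩ := hπ x
  obtain ⟨y, rfl⟩ := hπ y
  obtain ⟨a, -, a1, a2⟩ := Transfer.exists_pElt_lift π (isOfFinOrder_of_finite x) hk
  obtain ⟨b, -, b1, b2⟩ := Transfer.exists_pElt_lift π (isOfFinOrder_of_finite y) hl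
  have key : ∀ c : G, π c ≠ 1 → ¬ IsConj v c := fun c c1 e => by
    obtain ⟨g, rfl⟩ := isConj_iff.1 e
    exact c1 ((QuotientGroup.eq_one_iff _).2 (hV.conj_mem v hv g))
  rw [← a2] at x1 ⊢
  rw [← b2] at y1 ⊢
  exact π.map_isConj ((h.conj v1 (by rintro rfl; exact x1 (map_one π))
    (by rintro rfl; exact y1 (map_one π)) v2 a1 b1 (key a x1)).resolve_left (key b y1))

theorem R_V (h : pCore p G ≠ ⊥) : ∃ V : Subgroup G, V.Normal ∧ V ≠ ⊥ ∧ V ≤ pCore p G ∧
    (∀ v ∈ V, v ^ p = 1) ∧ V ≤ centralizer (pCore p G : Set G) := by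
  let V : Subgroup G :=
    { carrier := {g | g ∈ pCore p G ∧ g ∈ centralizer (pCore p G : Set G) ∧ g ^ p = 1}
      one_mem' := ⟨one_mem _, one_mem _, one_pow _⟩
      mul_mem' := fun {a b} ha hb => ⟨mul_mem ha.1 hb.1, mul_mem ha.2.1 hb.2.1, by
        rw [Commute.mul_pow (hb.2.1 a ha.1), ha.2.2, hb.2.2, one_mul]⟩
      inv_mem' := fun {a} ha => ⟨inv_mem ha.1, inv_mem ha.2.1, by rw [inv_pow, ha.2.2, inv_one]⟩ }
  have hn : (pCore p G).Normal := inferInstance
  have hc : (centralizer (pCore p G : Set G)).Normal := inferInstance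
  refine ⟨V, ⟨fun a ha g => ⟨hn.conj_mem a ha.1 g, hc.conj_mem a ha.2.1 g, by
    rw [conj_pow, ha.2.2]; simp⟩⟩, ?_, fun a ha => ha.1, fun a ha => ha.2.2, fun a ha => ha.2.1⟩
  have := (nontrivial_iff_ne_bot _).2 h
  have hP : IsPGroup p (pCore p G) := pCore_isPGroup
  have := hP.center_nontrivial
  have hd : p ∣ Nat.card (center (pCore p G)) :=
    (hP.to_subgroup _).card_eq_or_dvd.resolve_left Finite.one_lt_card.ne'
  obtain ⟨z, hz⟩ := exists_prime_orderOf_dvd_card' p hd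
  refine ne_bot_iff_exists_ne_one.2 ⟨⟨z, z.1.2, fun b hb =>
    congrArg Subtype.val (mem_center_iff.1 z.2 ⟨b, hb⟩), ?_⟩, fun e => ?_⟩
  · have := congrArg (fun t : center (pCore p G) => ((t : pCore p G) : G)) (pow_orderOf_eq_one z)
    rw [hz] at this
    exact this
  · have : z = 1 := Subtype.ext (Subtype.ext (congrArg (fun t : V => (t : G)) e))
    rw [this, orderOf_one] at hz
    exact hp.out.one_lt.ne hz

theorem R_embed (V : Subgroup G) [V.Normal] (hc : centralizer (V : Set G) = V)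
    (h1 : Nat.card V = p) (hi : ¬ p ∣ V.index) :
    ∃ f : G →* affineGroup (ZMod p), Function.Injective f := by
  have hc' : IsMulCommutative V := le_centralizer_iff_isMulCommutative.1 hc.ge
  let e : Additive V ≃+ ZMod p := addEquivOfPrimeCardEq h1 (Nat.card_zmod p)
  obtain ⟨f, h3, -⟩ := EqC.exists_embed V (h1 ▸ hp.out.coprime_iff_not_dvd.2 hi) hc.le e fun g =>
    ⟨e (.ofMul (MulAut.conjNormal g (e.symm 1).toMul)), .refl _, fun v => by
      obtain ⟨n, hn⟩ := ZMod.natCast_zmod_surjective (e (.ofMul v))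
      obtain rfl : v = (e.symm 1).toMul ^ n := by
        rw [← toMul_nsmul, ← map_nsmul, nsmul_one, hn, e.symm_apply_apply, toMul_ofMul]
      simp [mul_comm]⟩
  have hm : ∀ g, ((semiaffineGroup (ZMod p)).subtype.comp f) g ∈ affineGroup (ZMod p) :=
    fun g => by
      have : f g ∈ (EqC.twH (F := ZMod p)).ker := RingEquiv.ext fun x => by
        obtain ⟨n, rfl⟩ := ZMod.natCast_zmod_surjective x
        simp
      rwa [EqC.ker_twH, mem_subgroupOf] at this
  exact ⟨MonoidHom.codRestrict _ _ hm, fun a b hab => h3 (Subtype.ext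
    (congrArg (fun x : affineGroup (ZMod p) => (x : Equiv.Perm (ZMod p))) hab))⟩

theorem R_core {G : Type u} [Group G] [Finite G] (hL : L2.{u} p) (hs : IsPSolvable p G)
    (h0 : pPrimeCore p G = ⊥) (hd : p ∣ Nat.card G) (h : PE p G) :
    p ≤ 2 * Nat.card (RC p G) ∨ (p - 1 ≤ 2 * Nat.card (RC p G) ∧ EX p G) := by
  have h1 := centralizer_pCore_le_of_isPSolvable hs h0
  have h2 : pCore p G ≠ ⊥ := fun e => by
    rw [e, coe_bot, centralizer_eq_top_iff_subset.2 (by simp), top_le_iff] at h1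
    rw [← card_top, ← h1, card_bot] at hd
    exact hp.out.ne_one (Nat.dvd_one.1 hd)
  obtain ⟨V, Vn, V0, V1, V2, V3⟩ := R_V h2
  have pe : ∀ v ∈ V, ∃ k, orderOf v = p ^ k := fun v hv =>
    ((Nat.dvd_prime_pow hp.out).1 (orderOf_dvd_of_pow_eq_one
      ((congrArg (v ^ ·) (pow_one p)).trans (V2 v hv)))).imp fun _ k => k.2
  obtain ⟨⟨v, hv⟩, v0⟩ := ne_bot_iff_exists_ne_one.1 V0
  have v1 : v ≠ 1 := fun e => v0 (Subtype.ext e)
  by_cases hi : p ∣ V.index
  · exact .inl (R_quot hs h V hv v1 (pe v hv) hi)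
  have inV : ∀ z : G, (∃ k, orderOf z = p ^ k) → z ∈ V := fun z ⟨k, hk⟩ => by
    have a := orderOf_map_dvd (QuotientGroup.mk' V) z
    have b : orderOf (QuotientGroup.mk' V z) ∣ V.index := orderOf_dvd_natCard _
    rw [hk] at a
    exact (QuotientGroup.eq_one_iff z).1 (orderOf_eq_one_iff.1 (Nat.eq_one_of_dvd_coprimes
      ((hp.out.coprime_iff_not_dvd.2 hi).pow_left k) a b))
  have V4 : pCore p G = V := le_antisymm (fun z hz => inV z (by
    simpa using IsPGroup.iff_orderOf.1 (pCore_isPGroup (p := p) (G := G)) ⟨z, hz⟩)) V1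
  rw [V4] at h1 V3
  have cen : centralizer (V : Set G) = V := le_antisymm h1 V3
  by_cases hall : ∀ a ∈ V, ∀ b ∈ V, a ≠ 1 → b ≠ 1 → IsConj a b
  · exact .inl (R_one hs hd fun x y x1 y1 x2 y2 => hall x (inV x x2) y (inV y y2) x1 y1)
  simp only [not_forall] at hall
  obtain ⟨a, ha, b, hb, a1, b1, hab⟩ := hall
  have pg : IsPGroup p V := fun w => ⟨1, Subtype.ext (by simpa using V2 _ w.2)⟩
  obtain ⟨H, cpl⟩ := exists_right_complement'_of_coprime (N := V)
    (coprime_card_of_isPGroup pg (hp.out.coprime_iff_not_dvd.2 hi).symm)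
  have cop : ¬ p ∣ Nat.card H := cpl.symm.index_eq_card ▸ hi
  have tr : ∀ c ∈ V, ∀ d : G, IsConj c d → ∃ g ∈ H, g * c * g⁻¹ = d := fun c hc d e => by
    obtain ⟨g, rfl⟩ := isConj_iff.1 e
    obtain ⟨⟨u, t⟩, rfl⟩ := cpl.symm.2 g
    refine ⟨u, u.2, ?_⟩
    simp only [mul_inv_rev]
    rw [mul_assoc (u : G) t, ← V3 t.2 c hc]
    group
  have hc : IsMulCommutative V := le_centralizer_iff_isMulCommutative.1 V3
  have := (nontrivial_iff_ne_bot V).2 V0
  let _ := Fgs2.Base.mulAct ((MulAut.conjNormal (H := V)).comp H.subtype)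
  have hs' : ∀ (g : H) (w : Additive V), ((g • w).toMul : G) = g * w.toMul * (g : G)⁻¹ :=
    fun _ _ => rfl
  have inj : Function.Injective ((MulAut.conjNormal (H := V)).comp H.subtype) := by
    refine (injective_iff_map_eq_one _).2 fun g e => ?_
    have h1 : (g : G) ∈ V := cen.le fun w hw =>
      (mul_inv_eq_iff_eq_mul.1 (congrArg Subtype.val (DFunLike.congr_fun e ⟨w, hw⟩) :)).symm
    exact Subtype.ext (mem_bot.1 (cpl.disjoint.le_bot ⟨h1, g.2⟩))
  have : FaithfulSMul H (Additive V) :=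
    ⟨fun {a b} e => inj (MulEquiv.ext fun w => e (.ofMul w))⟩
  have two : Two H (Additive.ofMul (⟨a, ha⟩ : V)) (Additive.ofMul (⟨b, hb⟩ : V)) := by
    refine ⟨fun e => a1 (congrArg (fun t : Additive V => (t.toMul : G)) e),
      fun e => b1 (congrArg (fun t : Additive V => (t.toMul : G)) e), ?_, fun z z0 => ?_⟩
    · rintro ⟨g, hg⟩
      exact hab (isConj_iff.2 ⟨g, congrArg (fun t : Additive V => (t.toMul : G)) hg⟩)
    · refine (h.conj a1 b1 (fun e => z0 (Subtype.ext e)) (pe a ha) (pe b hb)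
        (pe _ z.toMul.2) hab).imp (fun e => ?_) fun e => ?_
      · obtain ⟨g, g1, g2⟩ := tr a ha _ e
        exact ⟨⟨g, g1⟩, Subtype.ext g2⟩
      · obtain ⟨g, g1, g2⟩ := tr b hb _ e
        exact ⟨⟨g, g1⟩, Subtype.ext g2⟩
  have rc : Nat.card (ConjClasses H) ≤ Nat.card (RC p G) := le_of_add_le_left (classes_add_le
    (cpl.symm.QuotientMulEquiv.toMonoidHom.comp (QuotientGroup.mk' V))
    (cpl.symm.QuotientMulEquiv.surjective.comp (QuotientGroup.mk'_surjective V)) cop ∅ (by simp))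
  rcases hL H (Additive V) _ _ cop (fun w => Subtype.ext (V2 _ w.toMul.2)) two with k | ⟨k, l⟩
  · exact .inl (by omega)
  have k' : Nat.card V = p := k
  have := isCyclic_of_prime_card k'
  have kH : Nat.card H ≤ Nat.card (ConjClasses H) := by
    refine Nat.card_le_card_of_injective ConjClasses.mk fun c d e => ?_
    obtain ⟨g, rfl⟩ := isConj_iff.1 (ConjClasses.mk_eq_mk_iff_isConj.1 e)
    rw [eq_mul_inv_iff_mul_eq]
    apply inj
    apply (IsCyclic.mulAutMulEquiv V).injective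
    rw [map_mul, map_mul, map_mul, map_mul, mul_comm]
  refine .inr ⟨by omega, by omega, ?_, R_embed V cen k' hi⟩
  rw [← cpl.card_mul_card, k', mul_left_comm]
  congr 1
  omega

theorem R_conv (hs : IsPSolvable p G) (h : EX p G) : 2 * Nat.card (RC p G) ≤ p - 1 := by
  obtain ⟨h2, hc, -⟩ := h
  obtain ⟨m, hm⟩ := hp.out.even_sub_one h2
  have h1 := hp.out.two_le
  have hG : Nat.card G = p * m := by
    rw [hm, ← two_mul, mul_left_comm] at hc
    exact Nat.eq_of_mul_eq_mul_left two_pos hc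
  have m0 : 0 < m := by omega
  have pm : ¬ p ∣ m := Nat.not_dvd_of_pos_of_lt m0 (by omega)
  obtain ⟨P⟩ : Nonempty (Sylow p G) := inferInstance
  have hi : P.1.index ∣ m := (hp.out.coprime_iff_not_dvd.2 P.not_dvd_index).symm.dvd_of_dvd_mul_left
    (hG ▸ P.1.index_dvd_card)
  have hn : Nat.card (Sylow p G) = 1 := by
    have a := Nat.le_of_dvd m0 (P.card_dvd_index.trans hi)
    exact Nat.ModEq.eq_of_lt_of_lt (card_sylow_modEq_one p G) (by omega) (by omega)
  have := (Nat.card_eq_one_iff_unique.1 hn).1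
  have : P.1.Normal := Sylow.normal_of_subsingleton P
  obtain ⟨H, cpl⟩ := exists_right_complement'_of_coprime (N := P.1) P.card_coprime_index
  have a := rc_le hs P.2 cpl (cpl.symm.index_eq_card ▸ P.not_dvd_index)
  have b : Nat.card (ConjClasses H) ≤ Nat.card H :=
    Nat.card_le_card_of_surjective _ ConjClasses.mk_surjective
  have c := Nat.le_of_dvd m0 (cpl.symm.index_eq_card ▸ hi)
  omega

theorem R_main {G : Type u} [Group G] [Finite G] (hL : L2.{u} p) (hs : IsPSolvable p G)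
    (h3 : Nat.card {c : ConjClasses G //
      ∃ g : G, ConjClasses.mk g = c ∧ ∃ k : ℕ, orderOf g = p ^ k} = 3) :
    p - 1 ≤ 2 * Nat.card (RC p G) ∧ (2 * Nat.card (RC p G) = p - 1 ↔ EX p G) := by
  obtain ⟨h, hd⟩ := PE.of_card h3
  have h1 := hp.out.two_le
  have key : p ≤ 2 * Nat.card (RC p G) ∨ (p - 1 ≤ 2 * Nat.card (RC p G) ∧ EX p G) := by
    by_cases h0 : pPrimeCore p G = ⊥
    · exact R_core hL hs h0 hd h
    have hπ := QuotientGroup.mk'_surjective (pPrimeCore p G)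
    obtain ⟨x, x1⟩ := ne_bot_iff_exists_ne_one.1 h0
    have a := (R_rc (p := p) _ hπ).2 x (fun e => x1 (Subtype.ext e))
      ((QuotientGroup.eq_one_iff _).2 x.2) fun k =>
        not_dvd_card_pPrimeCore (k.trans ((pPrimeCore p G).orderOf_dvd_natCard x.2))
    have b := R_core hL (isPSolvable_quotient hs (pPrimeCore p G)) pPrimeCore_quotient_pPrimeCore
      ((hp.out.dvd_mul.1 ((pPrimeCore p G).card_mul_index ▸ hd)).resolve_left
        not_dvd_card_pPrimeCore) (h.map _ hπ)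
    left
    rcases b with b | ⟨b, -⟩ <;> omega
  have l : p - 1 ≤ 2 * Nat.card (RC p G) := by rcases key with b | ⟨b, -⟩ <;> omega
  exact ⟨l, fun e => (key.resolve_left (by omega)).2, fun e => le_antisymm (R_conv hs e) l⟩

end CF.T3
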